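import Mathlib

/-!
# Commutative algebras normalized by a group transitive on the non-zero vectors
-/

set_option autoImplicit false
set_option linter.unusedSectionVars false
set_option linter.style.haveILetI false

namespace Cfsg.Agent.Lib.Hup.Ann

open Module Subgroup

universe u

variable {p : ℕ} [hp : Fact p.Prime] {V : Type u} [AddCommGroup V] [Module (ZMod p) V] [Finite V]

/-- Transitivity on the non-zero vectors. -/
def Trans (H : Subgroup (V ≃ₗ[ZMod p] V)) : Prop :=
  ∀ v w : V, v ≠ 0 → w ≠ 0 → ∃ h : H, (h : V ≃ₗ[ZMod p] V) v = w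

/-- Conjugation of endomorphisms. -/
def conjE (h : V ≃ₗ[ZMod p] V) (u : Module.End (ZMod p) V) : Module.End (ZMod p) V :=
  (h : V →ₗ[ZMod p] V) * u * (h.symm : V →ₗ[ZMod p] V)

theorem conjE_apply (h : V ≃ₗ[ZMod p] V) (u : Module.End (ZMod p) V) (v : V) :
    conjE h u v = h (u (h.symm v)) := rfl

theorem conjE_inj (h : V ≃ₗ[ZMod p] V) : Function.Injective (conjE (p := p) h) := by
  intro u w e
  ext v
  have := LinearMap.congr_fun e (h v)
  simp only [conjE_apply, LinearEquiv.symm_apply_apply] at this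
  exact h.injective this

section AnnLemma

variable {H : Subgroup (V ≃ₗ[ZMod p] V)} (htr : Trans H) {S : Set (Module.End (ZMod p) V)}
  (hcomm : ∀ u ∈ S, ∀ w ∈ S, u * w = w * u)
  (hconj : ∀ h : H, ∀ u ∈ S, conjE (h : V ≃ₗ[ZMod p] V) u ∈ S)

/-- The annihilator in `S`. -/
def annS (S : Set (Module.End (ZMod p) V)) (v : V) : Set (Module.End (ZMod p) V) :=
  {x | x ∈ S ∧ x v = 0}

include htr hconj in
theorem annS_ncard_eq {v w : V} (hv : v ≠ 0) (hw : w ≠ 0) :
    (annS S w).ncard = (annS S v).ncard := by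
  have : Finite (Module.End (ZMod p) V) := Module.finite_of_finite (ZMod p)
  obtain ⟨h, rfl⟩ := htr v w hv hw
  have hle : ∀ (g : V ≃ₗ[ZMod p] V), g ∈ H → ∀ x : V,
      (annS S x).ncard ≤ (annS S (g x)).ncard := by
    intro g hg x
    have hsub : (conjE g) '' annS S x ⊆ annS S (g x) := by
      rintro _ ⟨y, ⟨hy1, hy2⟩, rfl⟩
      refine ⟨hconj ⟨g, hg⟩ y hy1, ?_⟩
      rw [conjE_apply, LinearEquiv.symm_apply_apply, hy2, map_zero]
    calc (annS S x).ncard = ((conjE g) '' annS S x).ncard :=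
          (Set.ncard_image_of_injective _ (conjE_inj g)).symm
      _ ≤ _ := Set.ncard_le_ncard hsub (Set.toFinite _)
  apply le_antisymm
  · have := hle ((h : V ≃ₗ[ZMod p] V).symm) (H.inv_mem h.2) ((h : V ≃ₗ[ZMod p] V) v)
    simpa using this
  · exact hle h h.2 v

include htr hcomm hconj in
theorem annS_eq_of_apply_ne {v : V} {u : Module.End (ZMod p) V} (hu : u ∈ S) (huv : u v ≠ 0) :
    annS S (u v) = annS S v := by
  have : Finite (Module.End (ZMod p) V) := Module.finite_of_finite (ZMod p)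
  have hv : v ≠ 0 := by
    rintro rfl
    exact huv (map_zero u)
  have hsub : annS S v ⊆ annS S (u v) := by
    rintro x ⟨hx1, hx2⟩
    refine ⟨hx1, ?_⟩
    have := LinearMap.congr_fun (hcomm x hx1 u hu) v
    change x (u v) = u (x v) at this
    rw [this, hx2, map_zero]
  exact (Set.eq_of_subset_of_ncard_le hsub
    (annS_ncard_eq htr hconj hv huv).le (Set.toFinite _)).symm

include htr hcomm hconj in
/-- Non-zero elements of a commuting normalized set of endomorphisms are injective. -/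
theorem ann_trivial {u : Module.End (ZMod p) V} (hu : u ∈ S) {v : V} (hv : v ≠ 0) (huv : u v = 0) :
    u = 0 := by
  have : Finite (Module.End (ZMod p) V) := Module.finite_of_finite (ZMod p)
  by_contra hne
  obtain ⟨v₂, hv₂⟩ : ∃ v₂, u v₂ ≠ 0 := by
    by_contra h
    push Not at h
    exact hne (LinearMap.ext h)
  have hv₂0 : v₂ ≠ 0 := by
    rintro rfl
    exact hv₂ (map_zero u)
  have hx1 : u (v + v₂) = u v₂ := by rw [map_add, huv, zero_add]
  have hx2 : u (v + v₂) ≠ 0 := by rw [hx1]; exact hv₂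
  have e1 := annS_eq_of_apply_ne htr hcomm hconj hu hx2
  have e2 := annS_eq_of_apply_ne htr hcomm hconj hu hv₂
  rw [hx1, e2] at e1
  -- `annS v₂ = annS (v + v₂)`
  have hsub : annS S v₂ ⊆ annS S v := by
    rintro y hy
    have hy' : y ∈ annS S (v + v₂) := e1 ▸ hy
    refine ⟨hy.1, ?_⟩
    have h3 : y (v + v₂) = 0 := hy'.2
    rw [map_add, hy.2, add_zero] at h3
    exact h3
  have e3 : annS S v₂ = annS S v :=
    Set.eq_of_subset_of_ncard_le hsub (annS_ncard_eq htr hconj hv₂0 hv).le (Set.toFinite _)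
  have hm : u ∈ annS S v := ⟨hu, huv⟩
  rw [← e3] at hm
  exact hv₂ hm.2

end AnnLemma

section Field

variable {H : Subgroup (V ≃ₗ[ZMod p] V)} (htr : Trans H) (A : Subgroup H) (hAn : A.Normal)
  (hAc : IsMulCommutative A)

/-- The generating set of the algebra. -/
def genS (A : Subgroup H) : Set (Module.End (ZMod p) V) :=
  {u | ∃ a : H, a ∈ A ∧ u = ((a : V ≃ₗ[ZMod p] V) : V →ₗ[ZMod p] V)}

/-- The algebra generated by a subgroup. -/
noncomputable def algS (A : Subgroup H) : Subalgebra (ZMod p) (Module.End (ZMod p) V) :=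
  Algebra.adjoin (ZMod p) (genS A)

include hAc in
theorem genS_comm : ∀ u ∈ genS A, ∀ w ∈ genS A, u * w = w * u := by
  rintro _ ⟨a, ha, rfl⟩ _ ⟨b, hb, rfl⟩
  have h1 : (⟨a, ha⟩ : A) * ⟨b, hb⟩ = ⟨b, hb⟩ * ⟨a, ha⟩ := hAc.is_comm.comm _ _
  have h2 : a * b = b * a := congrArg Subtype.val h1
  have h3 : (a : V ≃ₗ[ZMod p] V) * b = b * a := congrArg Subtype.val h2
  ext v
  exact LinearEquiv.congr_fun h3 v

/-- Conjugation as an algebra automorphism. -/
noncomputable def conjA (h : V ≃ₗ[ZMod p] V) :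
    Module.End (ZMod p) V ≃ₐ[ZMod p] Module.End (ZMod p) V :=
  LinearEquiv.conjAlgEquiv (ZMod p) h

theorem conjA_apply (h : V ≃ₗ[ZMod p] V) (u : Module.End (ZMod p) V) :
    conjA h u = conjE h u := rfl

include hAn in
theorem algS_conj (h : H) {u : Module.End (ZMod p) V} (hu : u ∈ algS A) :
    conjE (h : V ≃ₗ[ZMod p] V) u ∈ algS A := by
  have h1 : (algS A).map (conjA (h : V ≃ₗ[ZMod p] V)).toAlgHom ≤ algS A := by
    unfold algS
    rw [AlgHom.map_adjoin, Algebra.adjoin_le_iff]
    rintro _ ⟨_, ⟨a, ha, rfl⟩, rfl⟩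
    apply Algebra.subset_adjoin
    refine ⟨h * a * h⁻¹, hAn.conj_mem a ha h, ?_⟩
    ext v
    rfl
  exact h1 ⟨u, hu, rfl⟩

include hAc in
theorem algS_comm : ∀ u ∈ algS A, ∀ w ∈ algS A, u * w = w * u := by
  intro u hu w hw
  have := (Algebra.isMulCommutative_adjoin (ZMod p) (genS_comm A hAc))
  have h1 := this.is_comm.comm (⟨u, hu⟩ : algS A) ⟨w, hw⟩
  exact congrArg Subtype.val h1

include htr hAn hAc in
theorem algS_inj {u : Module.End (ZMod p) V} (hu : u ∈ algS A) (hu0 : u ≠ 0) :
    Function.Injective u := by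
  rw [injective_iff_map_eq_zero]
  intro v hv
  by_contra hv0
  exact hu0 (ann_trivial htr (algS_comm A hAc) (fun h w hw => algS_conj A hAn h hw) hu hv0 hv)

/-- A type synonym for the generated algebra. -/
def KK (A : Subgroup H) : Type u := ↥(algS A)

/-- The underlying endomorphism. -/
def KK.val {A : Subgroup H} (k : KK A) : Module.End (ZMod p) V := Subtype.val k

theorem KK.mem {A : Subgroup H} (k : KK A) : k.val ∈ algS A := Subtype.property k

theorem KK.ext {A : Subgroup H} {k l : KK A} (h : k.val = l.val) : k = l := Subtype.ext h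

/-- The ring structure. -/
@[reducible] noncomputable def kRing : CommRing (KK A) :=
  Algebra.adjoinCommRingOfComm (ZMod p) (genS_comm A hAc)

include htr hAn hAc in
theorem exists_field [Nontrivial V] :
    ∃ (K : Type u) (_ : Field K) (_ : Finite K) (_ : Algebra (ZMod p) K) (_ : Module K V)
      (_ : IsScalarTower (ZMod p) K V) (Θ : H →* (K ≃ₐ[ZMod p] K)),
      (∀ a ∈ A, ∃ k : K, ∀ v, (a : V ≃ₗ[ZMod p] V) v = k • v) ∧
      (∀ (h : H) (k : K) (v : V), (h : V ≃ₗ[ZMod p] V) (k • v) = Θ h k • (h : V ≃ₗ[ZMod p] V) v) ∧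
      (∀ h : H, (∀ a ∈ A, h * a = a * h) → Θ h = 1) := by
  have hfin : Finite (Module.End (ZMod p) V) := Module.finite_of_finite (ZMod p)
  haveI hfinK : Finite (KK A) := inferInstanceAs (Finite ↥(algS A))
  letI cr : CommRing (KK A) := kRing A hAc
  haveI hnt : Nontrivial (KK A) := by
    refine ⟨⟨1, 0, fun h => ?_⟩⟩
    have h1 : (1 : Module.End (ZMod p) V) = 0 := congrArg KK.val h
    obtain ⟨v, hv⟩ := exists_ne (0 : V)
    exact hv (LinearMap.congr_fun h1 v)
  haveI dom : IsDomain (KK A) := by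
    haveI : NoZeroDivisors (KK A) := ⟨by
      intro u w huw
      by_contra hcon
      push Not at hcon
      have hu : u.val ≠ 0 := fun h => hcon.1 (KK.ext h)
      have hw : w.val ≠ 0 := fun h => hcon.2 (KK.ext h)
      obtain ⟨v, hv⟩ : ∃ v, w.val v ≠ 0 := by
        by_contra h
        push Not at h
        exact hw (LinearMap.ext h)
      have h1 : u.val * w.val = 0 := congrArg KK.val huw
      have h2 : u.val (w.val v) = 0 := LinearMap.congr_fun h1 v
      exact hv (algS_inj htr A hAn hAc u.mem hu (by rw [h2, map_zero]))⟩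
    exact NoZeroDivisors.to_isDomain _
  letI fld : Field (KK A) := (Finite.isField_of_domain (KK A)).toField
  let φ : KK A →+* Module.End (ZMod p) V :=
    { toFun := KK.val
      map_one' := rfl
      map_mul' := fun _ _ => rfl
      map_zero' := rfl
      map_add' := fun _ _ => rfl }
  letI mod₀ : Module (KK A) V := Module.compHom V φ
  let φ₀ : ZMod p →+* KK A :=
    { toFun := fun r => (⟨algebraMap (ZMod p) (Module.End (ZMod p) V) r, Subalgebra.algebraMap_mem _ r⟩ : ↥(algS A))
      map_one' := KK.ext (map_one _)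
      map_mul' := fun r s => KK.ext (map_mul _ r s)
      map_zero' := KK.ext (map_zero _)
      map_add' := fun r s => KK.ext (map_add _ r s) }
  letI alg₀ : Algebra (ZMod p) (KK A) := φ₀.toAlgebra
  have tow₀ : IsScalarTower (ZMod p) (KK A) V := ⟨fun r k v => by
    rw [Algebra.smul_def]
    change (φ₀ r * k).val v = r • k.val v
    change (algebraMap (ZMod p) (Module.End (ZMod p) V) r * k.val) v = r • k.val v
    rw [Module.End.mul_apply, Module.algebraMap_end_apply]⟩
  let Θ₀ : H → (KK A ≃ₐ[ZMod p] KK A) := fun h =>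
    { toFun := fun u => (⟨conjE (h : V ≃ₗ[ZMod p] V) u.val, algS_conj A hAn h u.mem⟩ : ↥(algS A))
      invFun := fun u => (⟨conjE ((h⁻¹ : H) : V ≃ₗ[ZMod p] V) u.val, algS_conj A hAn h⁻¹ u.mem⟩ : ↥(algS A))
      left_inv := fun u => by
        apply KK.ext
        ext v
        change (h : V ≃ₗ[ZMod p] V).symm ((h : V ≃ₗ[ZMod p] V) (u.val (((h : V ≃ₗ[ZMod p] V).symm ((h : V ≃ₗ[ZMod p] V) v))))) = _
        simp
      right_inv := fun u => by
        apply KK.ext
        ext v
        change (h : V ≃ₗ[ZMod p] V) ((h : V ≃ₗ[ZMod p] V).symm (u.val ((h : V ≃ₗ[ZMod p] V) (((h : V ≃ₗ[ZMod p] V).symm) v)))) = _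
        simp
      map_mul' := fun u w => by
        apply KK.ext
        ext v
        change (h : V ≃ₗ[ZMod p] V) (u.val (w.val ((h : V ≃ₗ[ZMod p] V).symm v))) =
          (h : V ≃ₗ[ZMod p] V) (u.val ((h : V ≃ₗ[ZMod p] V).symm ((h : V ≃ₗ[ZMod p] V) (w.val ((h : V ≃ₗ[ZMod p] V).symm v)))))
        simp
      map_add' := fun u w => by
        apply KK.ext
        ext v
        change (h : V ≃ₗ[ZMod p] V) (u.val ((h : V ≃ₗ[ZMod p] V).symm v) + w.val ((h : V ≃ₗ[ZMod p] V).symm v)) = _
        rw [map_add]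
        rfl
      commutes' := fun r => by
        apply KK.ext
        ext v
        change (h : V ≃ₗ[ZMod p] V) (r • ((h : V ≃ₗ[ZMod p] V).symm v)) = r • v
        simp }
  let Θ : H →* (KK A ≃ₐ[ZMod p] KK A) :=
    { toFun := Θ₀
      map_one' := by
        ext u
        rfl
      map_mul' := fun g h => by
        ext u
        rfl }
  refine ⟨KK A, fld, inferInstance, alg₀, mod₀, tow₀, Θ, ?_, ?_, ?_⟩
  · intro a ha
    refine ⟨(⟨_, Algebra.subset_adjoin ⟨a, ha, rfl⟩⟩ : ↥(algS A)), fun v => rfl⟩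
  · intro h k v
    change (h : V ≃ₗ[ZMod p] V) (k.val v) =
      (h : V ≃ₗ[ZMod p] V) (k.val ((h : V ≃ₗ[ZMod p] V).symm ((h : V ≃ₗ[ZMod p] V) v)))
    simp
  · intro h hcomm
    ext u
    apply KK.ext
    -- the fixed points of conjugation by `h`
    have hmem : ∀ w ∈ algS A, conjE (h : V ≃ₗ[ZMod p] V) w = w := by
      intro w hw
      induction hw using Algebra.adjoin_induction with
      | mem x hx =>
        obtain ⟨a, ha, rfl⟩ := hx
        ext v
        have h1 : h * a = a * h := hcomm a ha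
        have h2 : (h : V ≃ₗ[ZMod p] V) * a = a * h := congrArg Subtype.val h1
        have h3 := LinearEquiv.congr_fun h2 ((h : V ≃ₗ[ZMod p] V).symm v)
        change (h : V ≃ₗ[ZMod p] V) ((a : V ≃ₗ[ZMod p] V) ((h : V ≃ₗ[ZMod p] V).symm v)) =
          (a : V ≃ₗ[ZMod p] V) ((h : V ≃ₗ[ZMod p] V) ((h : V ≃ₗ[ZMod p] V).symm v)) at h3
        rw [LinearEquiv.apply_symm_apply] at h3
        exact h3
      | algebraMap r =>
        ext v
        change (h : V ≃ₗ[ZMod p] V) (r • ((h : V ≃ₗ[ZMod p] V).symm v)) = r • v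
        simp
      | add x y _ _ hx hy =>
        have := (conjA (h : V ≃ₗ[ZMod p] V)).map_add x y
        change conjE _ (x + y) = conjE _ x + conjE _ y at this
        rw [this, hx, hy]
      | mul x y _ _ hx hy =>
        have := (conjA (h : V ≃ₗ[ZMod p] V)).map_mul x y
        change conjE _ (x * y) = conjE _ x * conjE _ y at this
        rw [this, hx, hy]
    exact hmem _ u.mem


end Field

end Cfsg.Agent.Lib.Hup.Ann
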