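import Cfsg.Agent.Lib.Hup.Lin

/-!
# Counting lemmas for Huppert's theorem
-/

set_option autoImplicit false
set_option linter.unusedSectionVars false
set_option linter.style.haveILetI false

namespace Cfsg.Agent.Lib.Hup.Cnt

open Module Subgroup
open Cfsg.Agent.Lib.Hup.Extra Cfsg.Agent.Lib.Hup.Struct Cfsg.Agent.Lib.Hup.Lin
  Cfsg.Agent.Lib.Hup.Ann Cfsg.Agent.Lib.Hup.Gamma

universe u

variable {p : ℕ} [hp : Fact p.Prime] {V : Type u} [AddCommGroup V] [Module (ZMod p) V] [Finite V]
  {H : Subgroup (V ≃ₗ[ZMod p] V)}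

/-- A transitive group has order divisible by `|V| - 1`. -/
theorem card_dvd_of_trans [Nontrivial V] (htr : Trans H) : Nat.card V - 1 ∣ Nat.card H := by
  classical
  haveI : Finite H := Cfsg.Agent.Lib.PermMod.MinNormal.finite_H H
  obtain ⟨v₀, hv₀⟩ := exists_ne (0 : V)
  have horb : MulAction.orbit H v₀ = {v : V | v ≠ 0} := by
    ext v
    constructor
    · rintro ⟨h, rfl⟩
      change (h : V ≃ₗ[ZMod p] V) v₀ ≠ 0
      rw [Ne, map_eq_zero_iff _ (h : V ≃ₗ[ZMod p] V).injective]
      exact hv₀
    · intro hv
      obtain ⟨h, hh⟩ := htr v₀ v hv₀ hv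
      exact ⟨h, hh⟩
  have hidx := MulAction.index_stabilizer H v₀
  rw [horb] at hidx
  have h1 : ({v : V | v ≠ 0} : Set V).ncard = Nat.card V - 1 := by
    rw [← Nat.card_coe_set_eq]
    exact Cfsg.Agent.Lib.PermMod.RegLin.card_ne_zero (W := V)
  rw [← h1, ← hidx]
  exact Subgroup.index_dvd_card _

variable {K : Type u} [Field K] [Finite K] [Algebra (ZMod p) K] [Module K V]
  [IsScalarTower (ZMod p) K V]

/-- A group of scalars embeds in the multiplicative group of the field. -/
theorem card_dvd_of_scalars [Nontrivial V] (B : Subgroup H)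
    (hB : ∀ b ∈ B, ∃ k : K, ∀ v, (b : V ≃ₗ[ZMod p] V) v = k • v) : Nat.card B ∣ Nat.card K - 1 := by
  classical
  haveI : Finite H := Cfsg.Agent.Lib.PermMod.MinNormal.finite_H H
  obtain ⟨v₀, hv₀⟩ := exists_ne (0 : V)
  have hsm : ∀ k l : K, k • v₀ = l • v₀ → k = l := by
    intro k l h
    have h4 : (k - l) • v₀ = 0 := by rw [sub_smul, h, sub_self]
    have := (smul_eq_zero.mp h4).resolve_right hv₀
    exact sub_eq_zero.mp this
  choose g hg using fun b : B => hB b b.2
  let gh : B →* K :=
    { toFun := g
      map_one' := by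
        apply hsm
        rw [← hg, one_smul]
        rfl
      map_mul' := fun a b => by
        apply hsm
        rw [← hg, mul_smul, ← hg b, ← hg a]
        rfl }
  have hinj : Function.Injective gh := by
    intro a b hab
    apply Subtype.ext
    apply eq_of_apply
    intro v
    rw [hg a, hg b]
    have : g a = g b := hab
    rw [this]
  have hinj' : Function.Injective gh.toHomUnits := by
    intro a b hab
    apply hinj
    have := congrArg Units.val hab
    simpa using this
  have h1 := Subgroup.card_dvd_of_injective gh.toHomUnits hinj'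
  rwa [Nat.card_units] at h1

omit [Module K V] [IsScalarTower (ZMod p) K V] in
/-- The Galois group has order the degree. -/
theorem card_gal : Nat.card (K ≃ₐ[ZMod p] K) = finrank (ZMod p) K :=
  IsGalois.card_aut_eq_finrank (ZMod p) K

end Cfsg.Agent.Lib.Hup.Cnt
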