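import Mathlib

/-!
# Dimensions of representations of groups with cyclic commutator subgroup of prime order
-/

set_option autoImplicit false
set_option linter.unusedSectionVars false
set_option linter.style.haveILetI false

namespace Cfsg.Agent.Lib.Hup.Extra

open Module Subgroup

universe u v w

section Eigen

variable {E : Type w} {W : Type v} [Field E] [IsAlgClosed E] [AddCommGroup W] [Module E W]
  [FiniteDimensional E W]

/-- The eigenspaces of an operator permuted cyclically. -/
theorem finrank_eigen {r : ℕ} (hr : r.Prime) (T Y Y' : Module.End E W) {c ω μ₀ : E} (hc : c ≠ 0)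
    (hT : T ^ r = c • 1) (hYY' : Y * Y' = 1) (hY'Y : Y' * Y = 1) (hω : ω ≠ 1) (hωr : ω ^ r = 1)
    (hTY : T * Y = ω • (Y * T)) (hμ : T.HasEigenvalue μ₀) :
    finrank E W = r * finrank E (T.eigenspace μ₀) := by
  classical
  haveI : NeZero r := ⟨hr.ne_zero⟩
  haveI : Fact r.Prime := ⟨hr⟩
  have hord : orderOf ω = r := orderOf_eq_prime hωr hω
  have hprim : IsPrimitiveRoot ω r :=
    ⟨hωr, fun l hl => hord ▸ orderOf_dvd_of_pow_eq_one hl⟩
  have hr0 : (r : E) ≠ 0 := (hprim.neZero').out
  have hω0 : ω ≠ 0 := hprim.ne_zero hr.ne_zero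
  -- semisimplicity
  have hsemi : T.IsSemisimple := by
    apply Module.End.isSemisimple_of_squarefree_aeval_eq_zero
      (Polynomial.separable_X_pow_sub_C c hr0 hc).squarefree
    simp only [map_sub, map_pow, Polynomial.aeval_X, Polynomial.aeval_C, hT]
    rw [Module.algebraMap_end_eq_smul_id]
    ext v
    simp
  have hsup : ⨆ μ : E, T.eigenspace μ = ⊤ := hsemi.iSup_eigenspace_eq_top
  have hval : ∀ {μ : E} {v : W}, v ≠ 0 → v ∈ T.eigenspace μ → μ ^ r = c := by
    intro μ v hv hvμ
    have h1 : ∀ k : ℕ, (T ^ k) v = μ ^ k • v := by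
      intro k
      induction k with
      | zero => simp
      | succ k ih =>
        rw [pow_succ', Module.End.mul_apply, ih, map_smul, Module.End.mem_eigenspace_iff.mp hvμ,
          smul_smul, pow_succ]
    have h2 := h1 r
    rw [hT] at h2
    simp only [LinearMap.smul_apply, Module.End.one_apply] at h2
    have h3 : (c - μ ^ r) • v = 0 := by rw [sub_smul, h2, sub_self]
    have h4 := (smul_eq_zero.mp h3).resolve_right hv
    exact (sub_eq_zero.mp h4).symm
  obtain ⟨v₀, hv⟩ := hμ.exists_hasEigenvector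
  have hv₀ : v₀ ∈ T.eigenspace μ₀ := hv.1
  have hv₀0 : v₀ ≠ 0 := hv.2
  have hμ₀r : μ₀ ^ r = c := hval hv₀0 hv₀
  have hμ₀0 : μ₀ ≠ 0 := by
    rintro rfl
    rw [zero_pow hr.ne_zero] at hμ₀r
    exact hc hμ₀r.symm
  -- the spaces
  let A : Fin r → Submodule E W := fun i => T.eigenspace (μ₀ * ω ^ (i : ℕ))
  have hinj : Function.Injective (fun i : Fin r => μ₀ * ω ^ (i : ℕ)) := by
    intro i j hij
    have h1 : ω ^ (i : ℕ) = ω ^ (j : ℕ) := mul_left_cancel₀ hμ₀0 hij
    exact Fin.ext (hprim.pow_inj i.2 j.2 h1)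
  have hind : iSupIndep A := (T.eigenspaces_iSupIndep).comp hinj
  have htop : ⨆ i, A i = ⊤ := by
    rw [eq_top_iff, ← hsup]
    refine iSup_le fun μ => ?_
    by_cases hb : T.eigenspace μ = ⊥
    · rw [hb]
      exact bot_le
    · obtain ⟨v, hv, hv0⟩ := Submodule.exists_mem_ne_zero_of_ne_bot hb
      have h1 := hval hv0 hv
      have h2 : (μ / μ₀) ^ r = 1 := by
        rw [div_pow, h1, hμ₀r, div_self hc]
      obtain ⟨i, hi, hi2⟩ := hprim.eq_pow_of_pow_eq_one h2
      have h3 : μ = μ₀ * ω ^ i := by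
        rw [hi2]
        field_simp
      have h4 : T.eigenspace μ = A ⟨i, hi⟩ := by
        change T.eigenspace μ = T.eigenspace (μ₀ * ω ^ i)
        rw [← h3]
      rw [h4]
      exact le_iSup A _
  -- equality of the dimensions
  let g : W ≃ₗ[E] W := LinearEquiv.ofLinearMap Y Y' hYY' hY'Y
  have hY'T : Y' * T = ω • (T * Y') := by
    calc Y' * T = Y' * (T * (Y * Y')) := by rw [hYY', mul_one]
      _ = Y' * (T * Y) * Y' := by simp only [mul_assoc]
      _ = Y' * (ω • (Y * T)) * Y' := by rw [hTY]
      _ = ω • ((Y' * Y) * (T * Y')) := by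
        simp only [mul_smul_comm, smul_mul_assoc, mul_assoc]
      _ = ω • (T * Y') := by rw [hY'Y, one_mul]
  have hmap : ∀ μ : E, (T.eigenspace μ).map (g : W →ₗ[E] W) = T.eigenspace (μ * ω) := by
    intro μ
    apply le_antisymm
    · rintro _ ⟨v, hv, rfl⟩
      rw [Module.End.mem_eigenspace_iff]
      have h1 : T v = μ • v := Module.End.mem_eigenspace_iff.mp hv
      have h2 := LinearMap.congr_fun hTY v
      simp only [Module.End.mul_apply, LinearMap.smul_apply] at h2
      change T (Y v) = (μ * ω) • Y v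
      rw [h2, h1, map_smul, smul_smul, mul_comm ω]
    · intro v hv
      refine ⟨Y' v, ?_, ?_⟩
      · rw [SetLike.mem_coe, Module.End.mem_eigenspace_iff]
        have h1 : T v = (μ * ω) • v := Module.End.mem_eigenspace_iff.mp hv
        have h2 := LinearMap.congr_fun hY'T v
        simp only [Module.End.mul_apply, LinearMap.smul_apply] at h2
        rw [h1, map_smul] at h2
        have h3 : (μ * ω) • Y' v = ω • (μ • Y' v) := by rw [smul_smul, mul_comm]
        rw [h3] at h2
        exact (smul_right_injective W hω0 h2).symm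
      · have := LinearMap.congr_fun hYY' v
        exact this
  have hdim : ∀ k : ℕ, finrank E (T.eigenspace (μ₀ * ω ^ k)) = finrank E (T.eigenspace μ₀) := by
    intro k
    induction k with
    | zero => rw [pow_zero, mul_one]
    | succ k ih =>
      rw [← ih, pow_succ, ← mul_assoc, ← hmap]
      exact LinearEquiv.finrank_map_eq g _
  have hint := DirectSum.isInternal_submodule_of_iSupIndep_of_iSup_eq_top hind htop
  let e := LinearEquiv.ofBijective (DirectSum.coeLinearMap A) hint
  rw [← e.finrank_eq, Module.finrank_directSum]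
  have h1 : ∀ i : Fin r, finrank E (A i) = finrank E (T.eigenspace μ₀) := fun i => hdim i
  simp [h1]

end Eigen

section Comm

variable {N : Type u} [Group N]

/-- The commutator. -/
def cm (a b : N) : N := a * b * a⁻¹ * b⁻¹

theorem cm_eq_one {a b : N} : cm a b = 1 ↔ a * b = b * a := by
  unfold cm
  rw [mul_inv_eq_one, mul_inv_eq_iff_eq_mul]

theorem cm_mul_right (hc : ∀ a b d : N, cm a b * d = d * cm a b) (a b b' : N) :
    cm a (b * b') = cm a b * cm a b' := by
  have h1 : cm a (b * b') = cm a b * (b * cm a b' * b⁻¹) := by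
    unfold cm
    group
  rw [h1, (hc a b' b).symm]
  simp

theorem cm_mul_left (hc : ∀ a b d : N, cm a b * d = d * cm a b) (a a' b : N) :
    cm (a * a') b = cm a b * cm a' b := by
  have h1 : cm (a * a') b = a * cm a' b * a⁻¹ * cm a b := by
    unfold cm
    group
  rw [h1, (hc a' b a).symm]
  simp only [mul_inv_cancel_right]
  exact (hc a b _).symm

/-- The homomorphism given by a commutator in the second variable. -/
def cmR (hc : ∀ a b d : N, cm a b * d = d * cm a b) (x : N) : N →* N :=
  MonoidHom.mk' (fun w => cm x w) (cm_mul_right hc x)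

/-- The homomorphism given by a commutator in the first variable. -/
def cmL (hc : ∀ a b d : N, cm a b * d = d * cm a b) (y : N) : N →* N :=
  MonoidHom.mk' (fun w => cm w y) (fun a a' => cm_mul_left hc a a' y)

theorem cmR_apply (hc : ∀ a b d : N, cm a b * d = d * cm a b) (x w : N) : cmR hc x w = cm x w := rfl
theorem cmL_apply (hc : ∀ a b d : N, cm a b * d = d * cm a b) (y w : N) : cmL hc y w = cm w y := rfl

/-- A homomorphism onto a cyclic group of prime order. -/
theorem card_of_hom {A B : Type*} [Group A] [Group B] [Finite A] {r : ℕ} (hr : r.Prime) (φ : A →* B)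
    {g : B} (hg : g ^ r = 1) (hg1 : g ≠ 1) (h1 : ∀ a, ∃ u : ℕ, φ a = g ^ u) (h2 : ∃ a, φ a = g) :
    Nat.card A = r * Nat.card φ.ker := by
  haveI : Fact r.Prime := ⟨hr⟩
  have hrange : φ.range = zpowers g := by
    apply le_antisymm
    · rintro _ ⟨a, rfl⟩
      obtain ⟨u, hu⟩ := h1 a
      rw [hu]
      exact Subgroup.pow_mem _ (mem_zpowers g) u
    · obtain ⟨a, rfl⟩ := h2
      rw [Subgroup.zpowers_le]
      exact ⟨a, rfl⟩
  have hcard : Nat.card φ.range = r := by
    rw [hrange, Nat.card_zpowers]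
    exact orderOf_eq_prime hg hg1
  have h3 := φ.ker.card_mul_index
  rw [Subgroup.index_ker, hcard] at h3
  rw [← h3, mul_comm]

/-- The structure of the commutators. -/
structure CS (z : N) (r : ℕ) : Prop where
  central : ∀ x : N, x * z = z * x
  pow : z ^ r = 1
  comm : ∀ a b : N, ∃ k : ℕ, cm a b = z ^ k

theorem CS.cm_central {z : N} {r : ℕ} (h : CS z r) (a b d : N) : cm a b * d = d * cm a b := by
  obtain ⟨k, hk⟩ := h.comm a b
  rw [hk]
  have : Commute z d := (h.central d).symm
  exact (this.pow_left k).eq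

/-- All commutators are powers of any nontrivial commutator. -/
theorem CS.powers {z : N} {r : ℕ} (hr : r.Prime) (h : CS z r) {g : N} {k : ℕ} (hgk : g = z ^ k)
    (hg : g ≠ 1) (a b : N) : ∃ u : ℕ, cm a b = g ^ u := by
  have hk : ¬ r ∣ k := by
    rintro ⟨l, rfl⟩
    apply hg
    rw [hgk, pow_mul, h.pow, one_pow]
  have hcop : Nat.Coprime k r := ((Nat.Prime.coprime_iff_not_dvd hr).mpr hk).symm
  obtain ⟨m, -, hm⟩ := Nat.exists_mul_mod_eq_one_of_coprime hcop hr.one_lt
  obtain ⟨l, hl⟩ := h.comm a b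
  refine ⟨m * l, ?_⟩
  have : z ^ (k * m) = z := by
    rw [pow_eq_pow_mod _ h.pow, hm, pow_one]
  rw [hl, hgk, ← pow_mul, ← mul_assoc, pow_mul, this]

end Comm

section Main

variable {E : Type w} [Field E]

/-- The hypotheses on the representation. -/
structure Extra {W : Type v} [AddCommGroup W] [Module E W] {N : Type u} [Group N]
    (ρ : N →* Module.End E W) (z : N) (r : ℕ) (ζ : E) : Prop where
  cs : CS z r
  ρ_z : ρ z = ζ • 1
  ζ_ne : ζ ≠ 1
  ζ_pow : ζ ^ r = 1
  cen : ∀ c : N, (∀ y : N, c * y = y * c) → ∃ a : E, ρ c = a • 1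

variable [IsAlgClosed E]

/-- The dimension lemma. -/
theorem extra_dim {r : ℕ} (hr : r.Prime) : ∀ (n : ℕ) (N : Type u) [Group N] [Finite N]
    (_ : Nat.card N = n) (W : Type v) [AddCommGroup W] [Module E W] [FiniteDimensional E W]
    [Nontrivial W] (ρ : N →* Module.End E W) (z : N) (ζ : E) (_ : Extra ρ z r ζ),
    ∃ e : ℕ, Nat.card N = e * e * Nat.card (center N) ∧ e ∣ finrank E W := by
  classical
  intro n
  induction n using Nat.strong_induction_on with
  | _ n ih =>
    intro N _ _ hn W _ _ _ _ ρ z ζ hX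
    by_cases hab : ∀ x y : N, x * y = y * x
    · -- abelian case
      refine ⟨1, ?_, one_dvd _⟩
      have : center N = ⊤ := by
        rw [eq_top_iff]
        intro x _
        rw [Subgroup.mem_center_iff]
        exact fun y => hab y x
      rw [this, Subgroup.card_top]
      simp
    push Not at hab
    obtain ⟨x, y, hxy⟩ := hab
    have hc := hX.cs.cm_central
    set g : N := cm x y with hg
    have hg1 : g ≠ 1 := fun h => hxy (cm_eq_one.mp h)
    obtain ⟨k, hk⟩ := hX.cs.comm x y
    have hgr : g ^ r = 1 := by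
      rw [← hg] at hk
      rw [hk, ← pow_mul, mul_comm, pow_mul, hX.cs.pow, one_pow]
    have hpow := hX.cs.powers hr hk hg1
    -- the group theory
    let M : Subgroup N := centralizer {x}
    have hmemM : ∀ w, w ∈ M ↔ w * x = x * w := fun w => mem_centralizer_singleton_iff
    have hkerR : ∀ w, w ∈ (cmR hc x).ker ↔ w ∈ M := by
      intro w
      rw [MonoidHom.mem_ker, cmR_apply, cm_eq_one, hmemM]
      exact eq_comm
    have hcardN : Nat.card N = r * Nat.card M := by
      rw [card_of_hom hr (cmR hc x) hgr hg1 (fun a => hpow x a) ⟨y, rfl⟩]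
      congr 1
      exact Nat.card_congr (Equiv.subtypeEquivRight hkerR)
    have hMlt : Nat.card M < n := by
      rw [← hn, hcardN]
      have h1 : 0 < Nat.card M := Nat.card_pos
      have h2 := hr.two_le
      nlinarith
    have hfac : ∀ w : N, ∃ (m : N) (u : ℕ), m ∈ M ∧ w = m * y ^ u := by
      intro w
      obtain ⟨u, hu⟩ := hpow x w
      refine ⟨w * (y ^ u)⁻¹, u, ?_, by simp⟩
      rw [← hkerR, MonoidHom.mem_ker, map_mul, map_inv, map_pow, cmR_apply, cmR_apply, hu]
      simp
    have hxM : x ∈ M := (hmemM x).mpr rfl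
    have hxcen : (⟨x, hxM⟩ : M) ∈ center M := by
      rw [Subgroup.mem_center_iff]
      rintro ⟨d, hd⟩
      exact Subtype.ext ((hmemM d).mp hd)
    -- the centre of the centralizer
    let ψ : center M →* N := (cmL hc y).comp (M.subtype.comp (center M).subtype)
    have hψ : ∀ c : center M, ψ c = cm ((c : M) : N) y := fun c => rfl
    have hcenN : ∀ c : center M, ψ c = 1 → ((c : M) : N) ∈ center N := by
      intro c hcy
      rw [Subgroup.mem_center_iff]
      intro w
      obtain ⟨m, u, hm, rfl⟩ := hfac w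
      have h1 : ((c : M) : N) * y = y * ((c : M) : N) := cm_eq_one.mp hcy
      have h2 : m * ((c : M) : N) = ((c : M) : N) * m := by
        have := (Subgroup.mem_center_iff.mp c.2) ⟨m, hm⟩
        exact congrArg Subtype.val this
      have h3 : Commute y ((c : M) : N) := h1.symm
      have h4 : y ^ u * ((c : M) : N) = ((c : M) : N) * y ^ u := (h3.pow_left u).eq
      calc m * y ^ u * ((c : M) : N) = m * (y ^ u * ((c : M) : N)) := by group
        _ = (m * ((c : M) : N)) * y ^ u := by rw [h4]; group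
        _ = ((c : M) : N) * (m * y ^ u) := by rw [h2]; group
    have hcardC : Nat.card (center M) = r * Nat.card (center N) := by
      rw [card_of_hom hr ψ hgr hg1 (fun a => hpow _ y) ⟨⟨⟨x, hxM⟩, hxcen⟩, rfl⟩]
      congr 1
      refine Nat.card_eq_of_bijective
        (fun c : ψ.ker => (⟨(((c : center M) : M) : N), hcenN c c.2⟩ : center N)) ⟨?_, ?_⟩
      · intro c d hcd
        apply Subtype.ext
        apply Subtype.ext
        apply Subtype.ext
        have h1 : (((c : center M) : M) : N) = ((d : center M) : M) :=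
          congrArg (fun t : center N => (t : N)) hcd
        exact h1
      · rintro ⟨d, hd⟩
        have hdM : d ∈ M := (hmemM d).mpr ((Subgroup.mem_center_iff.mp hd) x).symm
        have hdc : (⟨d, hdM⟩ : M) ∈ center M := by
          rw [Subgroup.mem_center_iff]
          rintro ⟨w, hw⟩
          exact Subtype.ext ((Subgroup.mem_center_iff.mp hd) w)
        refine ⟨⟨⟨⟨d, hdM⟩, hdc⟩, ?_⟩, rfl⟩
        rw [MonoidHom.mem_ker, hψ]
        exact cm_eq_one.mpr ((Subgroup.mem_center_iff.mp hd) y).symm
    have hdecomp : ∀ c : center M, ∃ (c₀ : N) (u : ℕ), c₀ ∈ center N ∧ ((c : M) : N) = c₀ * x ^ u := by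
      intro c
      obtain ⟨u, hu⟩ := hpow ((c : M) : N) y
      let xh : center M := ⟨⟨x, hxM⟩, hxcen⟩
      have h1 : ψ (c * (xh ^ u)⁻¹) = 1 := by
        rw [map_mul, map_inv, map_pow, hψ, hu]
        have : ψ xh = g := rfl
        rw [this]
        exact mul_inv_cancel _
      refine ⟨((c * (xh ^ u)⁻¹ : center M) : M), u, hcenN _ h1, ?_⟩
      simp [xh]
    -- the representation theory
    have hζord : orderOf ζ = r := by
      haveI : Fact r.Prime := ⟨hr⟩
      exact orderOf_eq_prime hX.ζ_pow hX.ζ_ne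
    have hρzk : ∀ l : ℕ, ρ (z ^ l) = ζ ^ l • 1 := by
      intro l
      rw [map_pow, hX.ρ_z, smul_pow, one_pow]
    set ω := ζ ^ k with hω
    have hω1 : ω ≠ 1 := by
      intro h
      have h1 : r ∣ k := hζord ▸ orderOf_dvd_of_pow_eq_one h
      obtain ⟨l, rfl⟩ := h1
      apply hg1
      rw [hg, hk, pow_mul, hX.cs.pow, one_pow]
    have hωr : ω ^ r = 1 := by
      rw [hω, ← pow_mul, mul_comm, pow_mul, hX.ζ_pow, one_pow]
    have hTY : ρ x * ρ y = ω • (ρ y * ρ x) := by
      have h1 : x * y = g * (y * x) := by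
        rw [hg]
        unfold cm
        group
      rw [← map_mul, h1, map_mul, hg, hk, hρzk, map_mul]
      simp
      rfl
    -- the `r`-th power of `x`
    have hxr : ∀ w : N, x ^ r * w = w * x ^ r := by
      intro w
      obtain ⟨u, hu⟩ := hpow x w
      apply cm_eq_one.mp
      have : cm (x ^ r) w = (cmL hc w x) ^ r := by
        rw [← map_pow]
        rfl
      rw [this, cmL_apply, hu, ← pow_mul, mul_comm, pow_mul, hgr, one_pow]
    obtain ⟨c, hc'⟩ := hX.cen (x ^ r) hxr
    have hc0 : c ≠ 0 := by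
      rintro rfl
      have h1 : ρ (x ^ r) * ρ ((x ^ r)⁻¹) = 1 := by rw [← map_mul, mul_inv_cancel, map_one]
      rw [hc', zero_smul, zero_mul] at h1
      exact zero_ne_one h1
    have hTr : ρ x ^ r = c • 1 := by rw [← map_pow, hc']
    obtain ⟨μ₀, hμ₀⟩ := Module.End.exists_eigenvalue (ρ x)
    have hdimW := finrank_eigen hr (ρ x) (ρ y) (ρ y⁻¹) hc0 hTr
      (by rw [← map_mul, mul_inv_cancel, map_one]) (by rw [← map_mul, inv_mul_cancel, map_one])
      hω1 hωr hTY hμ₀
    -- the restriction
    let V₀ : Submodule E W := (ρ x).eigenspace μ₀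
    have hV₀ : ∀ m : M, ∀ v ∈ V₀, ρ (m : N) v ∈ V₀ := by
      intro m v hv
      change ρ (m : N) v ∈ (ρ x).eigenspace μ₀
      rw [Module.End.mem_eigenspace_iff]
      have h1 : (ρ x) v = μ₀ • v := Module.End.mem_eigenspace_iff.mp hv
      have h2 : ρ x * ρ (m : N) = ρ (m : N) * ρ x := by
        rw [← map_mul, ← map_mul, (hmemM _).mp m.2]
      have h3 := LinearMap.congr_fun h2 v
      simp only [Module.End.mul_apply] at h3
      rw [h3, h1, map_smul]
    let ρ₁ : M →* Module.End E V₀ :=
      { toFun := fun m => (ρ (m : N)).restrict (hV₀ m)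
        map_one' := by
          ext v
          simp [LinearMap.restrict_apply]
        map_mul' := fun a b => by
          ext v
          simp [LinearMap.restrict_apply] }
    have hρ₁ : ∀ (m : M) (v : V₀), ((ρ₁ m v : V₀) : W) = ρ (m : N) v := fun m v => rfl
    have hnt : Nontrivial V₀ := by
      rw [Submodule.nontrivial_iff_ne_bot]
      exact hμ₀
    have hzM : z ∈ M := (hmemM z).mpr (hX.cs.central x).symm
    have hX₁ : Extra ρ₁ ⟨z, hzM⟩ r ζ := by
      refine ⟨⟨?_, ?_, ?_⟩, ?_, hX.ζ_ne, hX.ζ_pow, ?_⟩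
      · rintro ⟨w, hw⟩
        exact Subtype.ext (hX.cs.central w)
      · exact Subtype.ext hX.cs.pow
      · rintro ⟨a, ha⟩ ⟨b, hb⟩
        obtain ⟨l, hl⟩ := hX.cs.comm a b
        exact ⟨l, Subtype.ext hl⟩
      · ext v
        rw [hρ₁]
        change ρ z (v : W) = _
        rw [hX.ρ_z]
        simp
      · intro d hd
        have hdc : d ∈ center M := Subgroup.mem_center_iff.mpr (fun w => (hd w).symm)
        obtain ⟨c₀, u, hc₀, he⟩ := hdecomp ⟨d, hdc⟩
        obtain ⟨a, ha⟩ := hX.cen c₀ (fun w => ((Subgroup.mem_center_iff.mp hc₀) w).symm)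
        refine ⟨a * μ₀ ^ u, ?_⟩
        ext v
        rw [hρ₁]
        have he' : ((d : M) : N) = c₀ * x ^ u := he
        rw [he', map_mul, map_pow, Module.End.mul_apply, ha]
        have h1 : ∀ l : ℕ, ∀ v : V₀, (ρ x ^ l) (v : W) = μ₀ ^ l • (v : W) := by
          intro l v
          induction l with
          | zero => simp
          | succ l ih =>
            rw [pow_succ', Module.End.mul_apply, ih, map_smul,
              Module.End.mem_eigenspace_iff.mp v.2, smul_smul, pow_succ]
        rw [h1]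
        simp [smul_smul]
        rw [mul_comm]
    obtain ⟨e₁, he₁, hd₁⟩ := ih (Nat.card M) hMlt M rfl V₀ ρ₁ ⟨z, hzM⟩ ζ hX₁
    refine ⟨r * e₁, ?_, ?_⟩
    · rw [hcardN, he₁, hcardC]
      ring
    · rw [hdimW]
      exact Nat.mul_dvd_mul_left r hd₁

end Main

end Cfsg.Agent.Lib.Hup.Extra
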