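import Cfsg.Agent.Lib.Hup.Ann

/-!
# Groups acting semilinearly on a line
-/

set_option autoImplicit false
set_option linter.unusedSectionVars false
set_option linter.style.haveILetI false

namespace Cfsg.Agent.Lib.Hup.Gamma

open Module Subgroup
open Cfsg.Agent.Lib.Hup.Ann

universe u

variable {p : ℕ} [hp : Fact p.Prime] {V : Type u} [AddCommGroup V] [Module (ZMod p) V] [Finite V]
  {H : Subgroup (V ≃ₗ[ZMod p] V)}
  {K : Type u} [Field K] [Finite K] [Algebra (ZMod p) K] [Module K V] [IsScalarTower (ZMod p) K V]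

theorem card_K : Nat.card K = p ^ finrank (ZMod p) K := by
  rw [Module.natCard_eq_pow_finrank (K := ZMod p) (V := K), Nat.card_zmod]

/-- The conclusion for a group acting semilinearly on a line. -/
theorem gamma_of_line [Nontrivial V] (Θ : H →* (K ≃ₐ[ZMod p] K))
    (hΘ : ∀ (h : H) (k : K) (v : V), (h : V ≃ₗ[ZMod p] V) (k • v) = Θ h k • (h : V ≃ₗ[ZMod p] V) v)
    (ht : finrank K V = 1) :
    ∃ (F : Type) (_ : Field F) (_ : Fintype F) (e : V ≃+ F),
      ∀ h : H, ∃ (a : F) (σ : F ≃+* F), ∀ v : V, e ((h : V ≃ₗ[ZMod p] V) v) = a * σ (e v) := by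
  classical
  set f := finrank (ZMod p) K with hf
  haveI : Module.Finite (ZMod p) K := Module.Finite.of_finite
  have hf0 : f ≠ 0 := by
    have : 0 < finrank (ZMod p) K := Module.finrank_pos
    omega
  letI fF : Fintype (GaloisField p f) := Fintype.ofFinite _
  letI fK : Fintype K := Fintype.ofFinite _
  have hcard : Fintype.card K = Fintype.card (GaloisField p f) := by
    rw [← Nat.card_eq_fintype_card, ← Nat.card_eq_fintype_card, card_K (p := p), GaloisField.card p f hf0]
  let e₁ : K ≃+* GaloisField p f := FiniteField.ringEquivOfCardEq hcard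
  obtain ⟨v₀, hv₀⟩ := exists_ne (0 : V)
  have hspan := (finrank_eq_one_iff_of_nonzero' v₀ hv₀).mp ht
  let e₂' : K →ₗ[K] V := LinearMap.toSpanSingleton K V v₀
  have hbij : Function.Bijective e₂' := by
    constructor
    · rw [injective_iff_map_eq_zero]
      intro c hc
      have h1 : c • v₀ = 0 := hc
      exact (smul_eq_zero.mp h1).resolve_right hv₀
    · intro w
      obtain ⟨c, hc⟩ := hspan w
      exact ⟨c, hc⟩
  let e₂ : K ≃ₗ[K] V := LinearEquiv.ofBijective e₂' hbij
  have he₂ : ∀ k : K, e₂ k = k • v₀ := fun k => rfl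
  refine ⟨GaloisField p f, inferInstance, fF, e₂.symm.toAddEquiv.trans e₁.toAddEquiv, fun h => ?_⟩
  obtain ⟨a₀, ha₀⟩ := hspan ((h : V ≃ₗ[ZMod p] V) v₀)
  refine ⟨e₁ a₀, e₁.symm.trans ((Θ h).toRingEquiv.trans e₁), fun v => ?_⟩
  obtain ⟨k, rfl⟩ := e₂.surjective v
  have h1 : (h : V ≃ₗ[ZMod p] V) (e₂ k) = e₂ (a₀ * Θ h k) := by
    rw [he₂, he₂, hΘ, ← ha₀, smul_smul, mul_comm]
  simp [h1]

end Cfsg.Agent.Lib.Hup.Gamma
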