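import Cfsg.Agent.Lib.Zassen.SolMain
import Cfsg.Agent.Lib.Zassen.FCQuot

/-!
# Subgroups of index two
-/

set_option autoImplicit false
set_option linter.unusedSectionVars false
set_option linter.style.haveILetI false

namespace Cfsg.Agent.Lib.Hup.Index2

open Subgroup
open Cfsg.Agent.Lib.Zassen.SolQ Cfsg.Agent.Lib.Zassen.SolQ8 Cfsg.Agent.Lib.Zassen.QuotU

theorem index2_of_cyclic_sylow {G : Type*} [Group G] [Finite G] (h2 : 2 ∣ Nat.card G)
    (P : Sylow 2 G) (hc : IsCyclic P) : ∃ N : Subgroup G, N.Normal ∧ N.index = 2 := by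
  classical
  have hmin : (Nat.card G).minFac = 2 := (Nat.minFac_eq_two_iff _).mpr h2
  have hcomp := IsCyclic.isComplement' hmin hc
  set f := MonoidHom.transferSylow P (hc.normalizer_le_centralizer hmin) with hf
  have hsurj : Function.Surjective f := by
    have h1 : Nat.card f.range = Nat.card P := by
      rw [← Subgroup.index_ker]
      exact hcomp.symm.index_eq_card
    have h2 : f.range = ⊤ := Subgroup.eq_top_of_card_eq _ h1
    exact MonoidHom.range_eq_top.mp h2
  letI : CommGroup P := IsCyclic.commGroup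
  have h2P : 2 ∣ Nat.card P := by
    have := P.pow_dvd_card_of_pow_dvd_card (n := 1) (by simpa using h2)
    simpa using this
  let N₀ : Subgroup P := (powMonoidHom 2 : P →* P).range
  have hN₀ : N₀.index = 2 := by
    have := IsCyclic.index_powMonoidHom_range (G := P) 2
    rw [this]
    exact Nat.gcd_eq_right h2P
  refine ⟨N₀.comap f, inferInstance, ?_⟩
  rw [Subgroup.index_comap_of_surjective N₀ hsurj, hN₀]

theorem index2_of_z {G : Type*} [Group G] [Finite G] [IsZGroup G] (h2 : 2 ∣ Nat.card G) :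
    ∃ N : Subgroup G, N.Normal ∧ N.index = 2 := by
  haveI : Fact (Nat.Prime 2) := ⟨Nat.prime_two⟩
  exact index2_of_cyclic_sylow h2 default (Sylow.isPGroup' _).isCyclic_of_isZGroup

/-- The Klein four group in `Alt(4)`. -/
def V4s : Subgroup (alternatingGroup (Fin 4)) where
  carrier := {g | g ^ 2 = 1}
  one_mem' := by simp
  mul_mem' := by
    have : ∀ a b : alternatingGroup (Fin 4), a ^ 2 = 1 → b ^ 2 = 1 → (a * b) ^ 2 = 1 := by
      decide +kernel
    exact fun {a b} ha hb => this a b ha hb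
  inv_mem' := by
    intro a ha
    change a⁻¹ ^ 2 = 1
    rw [inv_pow, show a ^ 2 = 1 from ha, inv_one]

theorem mem_V4s {g : alternatingGroup (Fin 4)} : g ∈ V4s ↔ g ^ 2 = 1 := Iff.rfl

instance V4s_normal : V4s.Normal := by
  constructor
  intro n hn g
  rw [mem_V4s] at hn ⊢
  have : (g * n * g⁻¹) ^ 2 = g * n ^ 2 * g⁻¹ := by
    simp only [pow_two]
    group
  rw [this, hn]
  simp

theorem card_V4s : Nat.card V4s = 4 := by
  have : Nat.card V4s = (Finset.univ.filter (fun g : alternatingGroup (Fin 4) => g ^ 2 = 1)).card := by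
    apply Nat.subtype_card
    intro x
    simp [mem_V4s]
  rw [this]
  decide +kernel

theorem index_V4s : V4s.index = 3 := by
  have h := V4s.card_mul_index
  rw [card_V4s, nat_card_alternatingGroup] at h
  simp [Nat.factorial] at h
  omega

theorem a4_two_pow : ∀ y : alternatingGroup (Fin 4), y ^ 4 = 1 → y ^ 2 = 1 := by decide +kernel
theorem a4_three : ∀ y : alternatingGroup (Fin 4), y ^ 2 ≠ 1 → y ^ 3 = 1 := by decide +kernel
theorem a4_noncomm : ∀ g u : alternatingGroup (Fin 4), g ^ 2 ≠ 1 → u ^ 2 = 1 → u ≠ 1 → g * u ≠ u * g := by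
  decide +kernel

theorem a4_card : Nat.card (alternatingGroup (Fin 4)) = 12 := by
  rw [nat_card_alternatingGroup]
  simp [Nat.factorial]

theorem a4_exists : ∃ g : alternatingGroup (Fin 4), g ^ 2 ≠ 1 := by decide +kernel

/-- A group with the Sylow structure of a Frobenius complement and quotient `Alt(4)` has Sylow
`2`-subgroup of order at most `8`. -/
theorem no16 {G : Type*} [Group G] [Finite G] (f : G →* alternatingGroup (Fin 4))
    (hf : Function.Surjective f) (h2 : H2 G) : ¬ 16 ∣ Nat.card G := by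
  classical
  intro h16
  haveI : Fact (Nat.Prime 2) := ⟨Nat.prime_two⟩
  let T : Subgroup G := V4s.comap f
  haveI hTn : T.Normal := inferInstance
  let P : Sylow 2 G := default
  have hfP : ∀ x ∈ (P : Subgroup G), (f x) ^ 2 = 1 := by
    intro x hx
    obtain ⟨k, hk⟩ := P.isPGroup' ⟨x, hx⟩
    have h1 : x ^ 2 ^ k = 1 := by simpa using congrArg Subtype.val hk
    have h3 : orderOf (f x) ∣ 2 ^ k := orderOf_dvd_of_pow_eq_one (by rw [← map_pow, h1, map_one])
    have h4 : orderOf (f x) ∣ 12 := by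
      have := orderOf_dvd_natCard (f x)
      rwa [a4_card] at this
    have h5 : Nat.Coprime (orderOf (f x)) 3 := by
      have : Nat.Coprime (2 ^ k) 3 := Nat.Coprime.pow_left _ (by norm_num)
      exact Nat.Coprime.coprime_dvd_left h3 this
    have h6 : orderOf (f x) ∣ 4 := h5.dvd_of_dvd_mul_right (by simpa using h4)
    exact a4_two_pow _ (orderOf_dvd_iff_pow_eq_one.mp h6)
  have hPT : (P : Subgroup G) ≤ T := fun x hx => hfP x hx
  have h16P : 16 ∣ Nat.card P := by
    have := P.pow_dvd_card_of_pow_dvd_card (n := 4) (by simpa using h16)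
    simpa using this
  have hsup : normalizer ((P : Subgroup G) : Set G) ⊔ T = ⊤ := Sylow.normalizer_sup_eq_top' P hPT
  obtain ⟨g₀, hg₀⟩ := a4_exists
  obtain ⟨u, rfl⟩ := hf g₀
  have hu : u ∈ normalizer ((P : Subgroup G) : Set G) ⊔ T := by rw [hsup]; exact mem_top _
  obtain ⟨w, hw, t, ht, rfl⟩ := Subgroup.mem_sup_of_normal_right.mp hu
  have hfw : (f w) ^ 2 ≠ 1 := by
    intro h
    have h1 : f w ∈ V4s := h
    have h3 : f t ∈ V4s := ht
    exact hg₀ (by rw [map_mul]; exact V4s.mul_mem h1 h3)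
  have hfw3 : (f w) ^ 3 = 1 := a4_three _ hfw
  -- the odd part
  have hord : orderOf w ≠ 0 := (orderOf_pos w).ne'
  obtain ⟨α, β, hβ, hαβ⟩ := Nat.exists_eq_two_pow_mul_odd hord
  set w₀ := w ^ 2 ^ α with hw₀
  have hw₀β : w₀ ^ β = 1 := by
    rw [hw₀, ← pow_mul, ← hαβ, pow_orderOf_eq_one]
  have hw₀N : w₀ ∈ normalizer ((P : Subgroup G) : Set G) := Subgroup.pow_mem _ hw _
  have hfw₀ : (f w₀) ^ 2 ≠ 1 := by
    intro h
    apply hfw
    have h1 : (f w) ^ (2 ^ (α + 1)) = 1 := by
      rw [pow_succ, pow_mul, ← map_pow, ← hw₀]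
      exact h
    have h3 : orderOf (f w) ∣ 2 ^ (α + 1) := orderOf_dvd_of_pow_eq_one h1
    have h4 : orderOf (f w) ∣ 3 := orderOf_dvd_of_pow_eq_one hfw3
    have h5 : Nat.Coprime (2 ^ (α + 1)) 3 := Nat.Coprime.pow_left _ (by norm_num)
    have h6 : orderOf (f w) ∣ 1 := by
      have := Nat.dvd_gcd h3 h4
      rwa [h5.gcd_eq_one] at this
    have h7 : orderOf (f w) = 1 := Nat.dvd_one.mp h6
    rw [orderOf_eq_one_iff.mp h7]
    simp
  -- the automorphism
  let σ : MulAut (P : Subgroup G) := (P : Subgroup G).normalizerMonoidHom ⟨w₀, hw₀N⟩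
  have hσβ : σ ^ β = 1 := by
    change (P : Subgroup G).normalizerMonoidHom ⟨w₀, hw₀N⟩ ^ β = 1
    rw [← map_pow]
    have : (⟨w₀, hw₀N⟩ : normalizer ((P : Subgroup G) : Set G)) ^ β = 1 := Subtype.ext hw₀β
    rw [this, map_one]
  have hσ : σ = 1 := by
    rcases h2 P P.isPGroup' with hc | ⟨n, ⟨e⟩⟩
    · exact Cfsg.Agent.Lib.Zassen.QuatAut.cyclic_odd_aut P.isPGroup' σ hβ hσβ
    · have hn : 2 ≤ n := by
        have hc : Nat.card P = 4 * 2 ^ n := by
          rw [Nat.card_congr e.toEquiv, Nat.card_eq_fintype_card, QuaternionGroup.card]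
        rw [hc] at h16P
        by_contra hn
        obtain rfl | rfl : n = 0 ∨ n = 1 := by omega
        all_goals norm_num at h16P
      have := Cfsg.Agent.Lib.Zassen.QuatAut.quat_large_odd_aut n hn ((MulAut.congr e) σ) hβ (by
        rw [← map_pow, hσβ, map_one])
      exact (MulAut.congr e).injective (by rw [this, map_one])
  -- an element of the Sylow subgroup with nontrivial image
  have hx : ∃ x ∈ (P : Subgroup G), f x ≠ 1 := by
    by_contra hall
    push Not at hall
    have hR := (P.mapSurjective hf).pow_dvd_card_of_pow_dvd_card (n := 1) (by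
      rw [a4_card]; norm_num)
    rw [Sylow.coe_mapSurjective] at hR
    have hb : (P : Subgroup G).map f = ⊥ := by
      rw [Subgroup.map_eq_bot_iff]
      exact fun x hx => hall x hx
    rw [hb] at hR
    simp at hR
  obtain ⟨x, hxP, hx1⟩ := hx
  have hcomm : w₀ * x = x * w₀ := by
    have h1 := congrArg (fun τ : MulAut (P : Subgroup G) => ((τ ⟨x, hxP⟩ : (P : Subgroup G)) : G)) hσ
    have h3 : w₀ * x * w₀⁻¹ = x := h1
    rw [mul_inv_eq_iff_eq_mul] at h3
    exact h3
  apply a4_noncomm (f w₀) (f x) hfw₀ (hfP x hxP) hx1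
  rw [← map_mul, hcomm, map_mul]

end Cfsg.Agent.Lib.Hup.Index2
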