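import Mathlib

/-!
# A numerical lemma
-/

set_option autoImplicit false

namespace Cfsg.Agent.Lib.Hup.Num

open Finset

theorem geo (q n : ℕ) : q * (∑ i ∈ range n, (q + 1) ^ i) + 1 = (q + 1) ^ n := by
  induction n with
  | zero => simp
  | succ n ih =>
    rw [sum_range_succ, mul_add, add_right_comm, ih, pow_succ]
    ring

/-- The numerical lemma: a prime `s ≡ 1` modulo `r ^ m` dividing `r ^ j - 1` with `j ≤ 2 m`. -/
theorem lemmaN {r m s j : ℕ} (hr : 2 ≤ r) (hm : 1 ≤ m) (hs : s.Prime) (h1 : r ^ m ∣ s - 1)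
    (hj1 : 1 ≤ j) (hj2 : j ≤ 2 * m) (h2 : s ∣ r ^ j - 1) : s = r ^ m + 1 ∧ j = 2 * m := by
  classical
  obtain ⟨q, rfl⟩ : ∃ q, r = q + 1 := ⟨r - 1, by omega⟩
  have hq : 1 ≤ q := by omega
  set R := (q + 1) ^ m with hR
  have hR2 : 2 ≤ R := by
    calc 2 ≤ q + 1 := hr
      _ = (q + 1) ^ 1 := (pow_one _).symm
      _ ≤ (q + 1) ^ m := Nat.pow_le_pow_right (by omega) hm
  have hs2 := hs.two_le
  have hsR : R + 1 ≤ s := by
    have : R ≤ s - 1 := Nat.le_of_dvd (by omega) h1
    omega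
  obtain ⟨l, hl⟩ := h1
  have hl' : s = 1 + R * l := by omega
  -- the minimal exponent
  let P : ℕ → Prop := fun d => 1 ≤ d ∧ s ∣ (q + 1) ^ d - 1
  have hex : ∃ d, P d := ⟨j, hj1, h2⟩
  let d := Nat.find hex
  have hd : P d := Nat.find_spec hex
  have hmin : ∀ i, P i → d ≤ i := fun i hi => Nat.find_min' hex hi
  have hdj : d ≤ j := hmin j ⟨hj1, h2⟩
  have hd1 : 1 ≤ d := hd.1
  have hsd : s ∣ (q + 1) ^ d - 1 := hd.2
  -- `d > m`
  have hdm : m < d := by
    by_contra hle
    have hle' : d ≤ m := by omega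
    have h3 : (q + 1) ^ d ≤ R := Nat.pow_le_pow_right (by omega) hle'
    have h4 : 2 ≤ (q + 1) ^ d := by
      calc 2 ≤ q + 1 := hr
        _ = (q + 1) ^ 1 := (pow_one _).symm
        _ ≤ (q + 1) ^ d := Nat.pow_le_pow_right (by omega) hd1
    have h5 := Nat.le_of_dvd (by omega) hsd
    omega
  -- `s` does not divide `q`
  have hsq : ¬ s ∣ q := by
    intro h
    have h3 : 1 ≤ 1 := le_refl 1
    have h4 : P 1 := ⟨h3, by simpa using h⟩
    have := hmin 1 h4
    omega
  set M := ∑ i ∈ range d, (q + 1) ^ i with hM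
  have hgeo : q * M + 1 = (q + 1) ^ d := geo q d
  have hsM : s ∣ M := by
    have h3 : (q + 1) ^ d - 1 = q * M := by omega
    rw [h3] at hsd
    exact (hs.dvd_mul.mp hsd).resolve_left hsq
  obtain ⟨c, hc⟩ := hsM
  -- the splitting of the geometric sum
  obtain ⟨d', hd'⟩ : ∃ d', d = m + d' := ⟨d - m, by omega⟩
  set A := ∑ i ∈ range m, (q + 1) ^ i with hA
  have hgeoA : q * A + 1 = R := geo q m
  have hAR : A < R := by nlinarith
  set B := ∑ i ∈ range d', (q + 1) ^ i with hB
  have hsplit : M = A + R * B := by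
    rw [hM, hd', sum_range_add, hA, hB, hR, mul_sum]
    congr 1
    apply sum_congr rfl
    intro i _
    rw [pow_add]
  have hcmod : A ≤ c := by
    have h3 : A + R * B = c + R * (l * c) := by
      rw [← hsplit, hc, hl']
      ring
    have h4 : (A + R * B) % R = (c + R * (l * c)) % R := by rw [h3]
    rw [Nat.add_mul_mod_self_left, Nat.add_mul_mod_self_left, Nat.mod_eq_of_lt hAR] at h4
    rw [h4]
    exact Nat.mod_le _ _
  have hineq : (R + 1) * (q * A) ≤ q * M := by
    calc (R + 1) * (q * A) ≤ s * (q * c) := by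
          apply Nat.mul_le_mul hsR
          exact Nat.mul_le_mul_left q hcmod
      _ = q * M := by rw [hc]; ring
  have hqA : q * A = R - 1 := by omega
  have hd2m : 2 * m ≤ d := by
    have h3 : R * R ≤ (q + 1) ^ d := by
      rw [← hgeo]
      rw [hqA] at hineq
      obtain ⟨R', hR'⟩ : ∃ R', R = R' + 1 := ⟨R - 1, by omega⟩
      rw [hR'] at hineq ⊢
      simp only [Nat.add_sub_cancel] at hineq
      nlinarith
    have h4 : (q + 1) ^ (2 * m) = R * R := by
      rw [hR, two_mul, pow_add]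
    rw [← h4] at h3
    exact (Nat.pow_le_pow_iff_right (by omega)).mp h3
  have hj : j = 2 * m := by omega
  have hdeq : d = 2 * m := by omega
  refine ⟨?_, hj⟩
  have hsd' : s ∣ (R - 1) * (R + 1) := by
    have h3 : (q + 1) ^ d = R * R := by
      rw [hdeq, hR, two_mul, pow_add]
    have h4 : (R - 1) * (R + 1) = (q + 1) ^ d - 1 := by
      rw [h3]
      obtain ⟨R', hR'⟩ : ∃ R', R = R' + 1 := ⟨R - 1, by omega⟩
      rw [hR']
      simp only [Nat.add_sub_cancel]
      have : (R' + 1) * (R' + 1) = R' * (R' + 1 + 1) + 1 := by ring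
      omega
    rw [h4]
    exact hsd
  rcases hs.dvd_mul.mp hsd' with h3 | h3
  · exfalso
    have h4 : P m := ⟨hm, h3⟩
    have := hmin m h4
    omega
  · have := Nat.le_of_dvd (by omega) h3
    omega

/-- The final equation. -/
theorem final_eq {p h : ℕ} (hp : 3 ≤ p) (hh : 2 ≤ h) (he : p ^ h = 4 * h + 1) : h = 2 ∧ p = 3 := by
  have h3 : ∀ k, 3 ≤ k → 4 * k + 1 < 3 ^ k := by
    intro k hk
    induction k, hk using Nat.le_induction with
    | base => norm_num
    | succ k hk ih =>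
      rw [pow_succ]
      omega
  have hle : 3 ^ h ≤ p ^ h := Nat.pow_le_pow_left hp h
  have hh2 : h = 2 := by
    by_contra hne
    have := h3 h (by omega)
    omega
  subst hh2
  refine ⟨rfl, ?_⟩
  have : p ^ 2 = 9 := by omega
  nlinarith

end Cfsg.Agent.Lib.Hup.Num
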