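import Cfsg.Agent.Lib.Hup.Struct
import Cfsg.Agent.Lib.Hup.Num
import Cfsg.Agent.Lib.Singer.Basic
import Cfsg.Agent.Lib.Hup.Gamma
import Cfsg.Agent.Lib.PermMod.MinNormal

/-!
# The linear part of Huppert's theorem
-/

set_option autoImplicit false
set_option linter.unusedSectionVars false
set_option linter.style.haveILetI false

namespace Cfsg.Agent.Lib.Hup.Lin

open Module Subgroup TensorProduct
open Cfsg.Agent.Lib.Hup.Extra Cfsg.Agent.Lib.Hup.Struct

universe u

/-- Operators commuting with an operator having a cyclic vector commute with each other. -/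
theorem comm_of_cyclic {K V : Type*} [Field K] [AddCommGroup V] [Module K V] (g : Module.End K V)
    (v : V) (hspan : Submodule.span K (Set.range fun i : ℕ => (g ^ i) v) = ⊤)
    {a b : Module.End K V} (ha : Commute a g) (hb : Commute b g) : Commute a b := by
  classical
  have hcomm : ∀ {c : Module.End K V}, Commute c g → ∀ P : Polynomial K,
      Commute c (Polynomial.aeval g P) := by
    intro c hc P
    induction P using Polynomial.induction_on' with
    | add p q hp hq => rw [map_add]; exact hp.add_right hq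
    | monomial n k =>
      rw [Polynomial.aeval_monomial]
      exact (Algebra.commute_algebraMap_right k c).mul_right (hc.pow_right n)
  have hcapp : ∀ {c : Module.End K V}, Commute c g → ∀ (P : Polynomial K) (w : V),
      c (Polynomial.aeval g P w) = Polynomial.aeval g P (c w) :=
    fun hc P w => LinearMap.congr_fun (hcomm hc P) w
  have hall : ∀ w : V, ∃ P : Polynomial K, Polynomial.aeval g P v = w := by
    intro w
    have hw : w ∈ Submodule.span K (Set.range fun i : ℕ => (g ^ i) v) := by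
      rw [hspan]
      exact Submodule.mem_top
    induction hw using Submodule.span_induction with
    | mem x hx =>
      obtain ⟨i, rfl⟩ := hx
      exact ⟨Polynomial.X ^ i, by simp⟩
    | zero => exact ⟨0, by simp⟩
    | add x y _ _ hx hy =>
      obtain ⟨P, rfl⟩ := hx
      obtain ⟨Q, rfl⟩ := hy
      exact ⟨P + Q, by simp⟩
    | smul k x _ hx =>
      obtain ⟨P, rfl⟩ := hx
      exact ⟨k • P, by simp⟩
  obtain ⟨Pa, hPa⟩ := hall (a v)
  obtain ⟨Pb, hPb⟩ := hall (b v)
  change a * b = b * a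
  apply LinearMap.ext
  intro w
  obtain ⟨R, rfl⟩ := hall w
  simp only [Module.End.mul_apply]
  rw [hcapp hb, hcapp ha, hcapp ha, hcapp hb, ← hPb, ← hPa, hcapp ha, hcapp hb, ← hPa, ← hPb]
  have h1 : Commute (Polynomial.aeval g Pb) (Polynomial.aeval g Pa) := by
    change _ * _ = _ * _
    rw [← map_mul, ← map_mul, mul_comm]
  have h2 := LinearMap.congr_fun h1 v
  simp only [Module.End.mul_apply] at h2
  rw [h2]

variable {p : ℕ} [hp : Fact p.Prime] {V : Type u} [AddCommGroup V] [Module (ZMod p) V] [Finite V]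
  {H : Subgroup (V ≃ₗ[ZMod p] V)}

theorem eq_of_apply {a b : H} (h : ∀ v, (a : V ≃ₗ[ZMod p] V) v = (b : V ≃ₗ[ZMod p] V) v) : a = b :=
  Subtype.ext (LinearEquiv.ext h)

theorem mul_apply' (a b : H) (v : V) :
    ((a * b : H) : V ≃ₗ[ZMod p] V) v = (a : V ≃ₗ[ZMod p] V) ((b : V ≃ₗ[ZMod p] V) v) := rfl

theorem one_apply' (v : V) : ((1 : H) : V ≃ₗ[ZMod p] V) v = v := rfl

theorem pow_apply' (a : H) (i : ℕ) (v : V) :
    ((a ^ i : H) : V ≃ₗ[ZMod p] V) v = ((a : V ≃ₗ[ZMod p] V) ^ i) v := by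
  rw [Subgroup.coe_pow]

variable {K : Type u} [Field K] [Finite K] [Algebra (ZMod p) K] [Module K V]
  [IsScalarTower (ZMod p) K V]
  (Θ : H →* (K ≃ₐ[ZMod p] K))
  (hΘ : ∀ (h : H) (k : K) (v : V), (h : V ≃ₗ[ZMod p] V) (k • v) = Θ h k • (h : V ≃ₗ[ZMod p] V) v)

include hΘ in
theorem smul_of_ker {h : H} (hh : h ∈ Θ.ker) (k : K) (v : V) :
    (h : V ≃ₗ[ZMod p] V) (k • v) = k • (h : V ≃ₗ[ZMod p] V) v := by
  have : Θ h = 1 := hh
  rw [hΘ, this]
  rfl

/-- The representation on the kernel. -/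
def rhoK : Θ.ker →* Module.End K V where
  toFun c :=
    { toFun := fun v => ((c : H) : V ≃ₗ[ZMod p] V) v
      map_add' := map_add _
      map_smul' := fun k v => smul_of_ker Θ hΘ c.2 k v }
  map_one' := rfl
  map_mul' _ _ := rfl

theorem rhoK_apply (c : Θ.ker) (v : V) : rhoK Θ hΘ c v = ((c : H) : V ≃ₗ[ZMod p] V) v := rfl

include hΘ in
theorem comm_of_scalar {a c : H} {k : K} (ha : ∀ v, (a : V ≃ₗ[ZMod p] V) v = k • v)
    (hc : c ∈ Θ.ker) : a * c = c * a := by
  apply eq_of_apply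
  intro v
  rw [mul_apply', mul_apply', ha, ha, smul_of_ker Θ hΘ hc]

omit [Finite K] [Algebra (ZMod p) K] [IsScalarTower (ZMod p) K V] in
theorem scalar_pow {a : H} {k : K} (ha : ∀ v, (a : V ≃ₗ[ZMod p] V) v = k • v) (i : ℕ) (v : V) :
    ((a ^ i : H) : V ≃ₗ[ZMod p] V) v = k ^ i • v := by
  induction i generalizing v with
  | zero => simp
  | succ i ih =>
    rw [pow_succ, mul_apply', ha, ih, smul_smul, pow_succ]

include hΘ in
/-- The dimension and order data of a non-abelian subgroup of the kernel. -/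
theorem dim_of_struct [Nontrivial V] (A : Subgroup H)
    (hAs : ∀ a ∈ A, ∃ k : K, ∀ v, (a : V ≃ₗ[ZMod p] V) v = k • v) {N : Subgroup H}
    (hNC : N ≤ Θ.ker) (hNna : ¬ IsMulCommutative N) {r : ℕ} (hr : r.Prime) (hpg : IsPGroup r N)
    (hcomm : ∀ x ∈ N, ∀ y ∈ N, cm x y ∈ A ∧ (cm x y) ^ r = 1)
    (hz : ∀ x ∈ N, (∀ y ∈ N, x * y = y * x) → x ∈ A) :
    ∃ m : ℕ, 1 ≤ m ∧ r ^ m ∣ finrank K V ∧ Nat.card N = r ^ m * r ^ m * Nat.card (center N) ∧
      r ∣ Nat.card K - 1 := by
  classical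
  haveI : Finite H := Cfsg.Agent.Lib.PermMod.MinNormal.finite_H H
  haveI : Module.Finite K V := Module.Finite.of_finite
  -- noncommuting elements
  obtain ⟨x₀, hx₀, y₀, hy₀, hne⟩ : ∃ x₀ ∈ N, ∃ y₀ ∈ N, x₀ * y₀ ≠ y₀ * x₀ := by
    by_contra hall
    push Not at hall
    apply hNna
    refine ⟨⟨?_⟩⟩
    rintro ⟨a, ha⟩ ⟨b, hb⟩
    exact Subtype.ext (hall a ha b hb)
  set z₀ := cm x₀ y₀ with hz₀
  have hz₀1 : z₀ ≠ 1 := fun h => hne (cm_eq_one.mp h)
  obtain ⟨hz₀A, hz₀r⟩ := hcomm x₀ hx₀ y₀ hy₀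
  rw [← hz₀] at hz₀A hz₀r
  have hz₀N : z₀ ∈ N := N.mul_mem (N.mul_mem (N.mul_mem hx₀ hy₀) (N.inv_mem hx₀)) (N.inv_mem hy₀)
  obtain ⟨ζ, hζ⟩ := hAs z₀ hz₀A
  obtain ⟨v₀, hv₀⟩ := exists_ne (0 : V)
  have hsm : ∀ k l : K, k • v₀ = l • v₀ → k = l := by
    intro k l h
    have h4 : (k - l) • v₀ = 0 := by rw [sub_smul, h, sub_self]
    have := (smul_eq_zero.mp h4).resolve_right hv₀
    exact sub_eq_zero.mp this
  have hζ1 : ζ ≠ 1 := by
    rintro rfl
    apply hz₀1
    apply eq_of_apply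
    intro v
    rw [hζ, one_smul]
    rfl
  have hζr : ζ ^ r = 1 := by
    apply hsm
    rw [← scalar_pow hζ, hz₀r, one_smul]
    rfl
  haveI : Fact r.Prime := ⟨hr⟩
  haveI : NeZero r := ⟨hr.ne_zero⟩
  have hord : orderOf ζ = r := orderOf_eq_prime hζr hζ1
  have hprim : IsPrimitiveRoot ζ r := ⟨hζr, fun l hl => hord ▸ orderOf_dvd_of_pow_eq_one hl⟩
  -- all commutators are powers
  have hpow : ∀ x ∈ N, ∀ y ∈ N, ∃ k : ℕ, cm x y = z₀ ^ k := by
    intro x hx y hy
    obtain ⟨hA', hr'⟩ := hcomm x hx y hy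
    obtain ⟨ξ, hξ⟩ := hAs _ hA'
    have hξr : ξ ^ r = 1 := by
      apply hsm
      rw [← scalar_pow hξ, hr', one_smul]
      rfl
    obtain ⟨i, -, hi⟩ := hprim.eq_pow_of_pow_eq_one hξr
    refine ⟨i, eq_of_apply fun v => ?_⟩
    rw [hξ, scalar_pow hζ, hi]
  -- the representation
  let E := AlgebraicClosure K
  let ι := algebraMap K E
  let ρ₀ : N →* Module.End K V := (rhoK Θ hΘ).comp (Subgroup.inclusion hNC)
  let ρ : N →* Module.End E (E ⊗[K] V) := (Module.End.baseChangeHom K E V).toMonoidHom.comp ρ₀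
  haveI : Nontrivial (E ⊗[K] V) := by
    apply Module.nontrivial_of_finrank_pos (R := E)
    rw [Module.finrank_baseChange]
    exact Module.finrank_pos
  have hbase : ∀ (c : N) (k : K), (∀ v, ((c : H) : V ≃ₗ[ZMod p] V) v = k • v) → ρ c = (ι k) • 1 := by
    intro c k hc
    have h1 : ρ₀ c = k • 1 := by
      ext v
      exact hc v
    change (ρ₀ c).baseChange E = _
    rw [h1]
    apply LinearMap.ext
    intro w
    induction w using TensorProduct.induction_on with
    | zero => simp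
    | tmul a v =>
      rw [LinearMap.baseChange_tmul]
      simp only [LinearMap.smul_apply, Module.End.one_apply]
      rw [TensorProduct.tmul_smul]
      exact (algebraMap_smul E k (a ⊗ₜ[K] v)).symm
    | add a b ha hb => rw [map_add, ha, hb, map_add]
  have hX : Extra ρ (⟨z₀, hz₀N⟩ : N) r (ι ζ) := by
    refine ⟨⟨?_, ?_, ?_⟩, hbase _ _ hζ, ?_, ?_, ?_⟩
    · rintro ⟨x, hx⟩
      exact Subtype.ext (comm_of_scalar Θ hΘ hζ (hNC hx)).symm
    · exact Subtype.ext hz₀r
    · rintro ⟨a, ha⟩ ⟨b, hb⟩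
      obtain ⟨k, hk⟩ := hpow a ha b hb
      exact ⟨k, Subtype.ext hk⟩
    · intro h
      exact hζ1 (ι.injective (by rw [h, map_one]))
    · rw [← map_pow, hζr, map_one]
    · rintro ⟨c, hc⟩ hcc
      obtain ⟨k, hk⟩ := hAs c (hz c hc (fun y hy => congrArg Subtype.val (hcc ⟨y, hy⟩)))
      exact ⟨ι k, hbase _ _ hk⟩
  obtain ⟨e, he, hed⟩ := extra_dim hr (Nat.card N) N rfl (E ⊗[K] V) ρ _ _ hX
  rw [Module.finrank_baseChange] at hed
  obtain ⟨a, ha⟩ := IsPGroup.iff_card.mp hpg
  have hedvd : e ∣ r ^ a := ⟨e * Nat.card (center N), by rw [← ha, he]; ring⟩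
  obtain ⟨m, -, rfl⟩ := (Nat.dvd_prime_pow hr).mp hedvd
  refine ⟨m, ?_, hed, he, ?_⟩
  · by_contra hm
    have hm0 : m = 0 := by omega
    subst hm0
    simp only [pow_zero, mul_one, one_mul] at he
    have htop : center N = ⊤ := Subgroup.eq_top_of_card_eq _ he.symm
    apply hNna
    refine ⟨⟨fun a b => ?_⟩⟩
    have : b ∈ center N := by rw [htop]; exact mem_top _
    exact (Subgroup.mem_center_iff.mp this) a
  · have hζ0 : ζ ≠ 0 := by
      rintro rfl
      rw [zero_pow hr.ne_zero] at hζr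
      exact zero_ne_one hζr
    let u : Kˣ := Units.mk0 ζ hζ0
    have hu : orderOf u = r := by
      apply orderOf_eq_prime
      · exact Units.ext hζr
      · intro h
        exact hζ1 (congrArg Units.val h)
    have h1 := orderOf_dvd_natCard u
    rw [hu, Nat.card_units] at h1
    exact h1

include hΘ in
/-- An element of primitive prime order has commutative centralizer in the kernel. -/
theorem comm_of_prim_centralizer [Nontrivial V] {N : Subgroup H} (hNC : N ≤ Θ.ker) {y : H}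
    (hy : y ∈ Θ.ker) {s : ℕ} (hs : s.Prime) (hys : y ^ s = 1) (hy1 : y ≠ 1)
    (hdvd : s ∣ Nat.card K ^ finrank K V - 1)
    (hprim : ∀ k, 0 < k → k < finrank K V → ¬ s ∣ Nat.card K ^ k - 1)
    (hcen : ∀ x ∈ N, y * x = x * y) : IsMulCommutative N := by
  classical
  letI : Fintype K := Fintype.ofFinite K
  haveI : Module.Finite K V := Module.Finite.of_finite
  let yh : Θ.ker := ⟨y, hy⟩
  let g : Module.End K V := rhoK Θ hΘ yh
  let u : (Module.End K V)ˣ := (rhoK Θ hΘ).toHomUnits yh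
  have hu : u ^ s = 1 := by
    have : yh ^ s = 1 := Subtype.ext hys
    rw [← map_pow, this, map_one]
  have hu1 : u ≠ 1 := by
    intro h
    apply hy1
    apply eq_of_apply
    intro v
    have h1 : g = 1 := congrArg Units.val h
    have h2 := LinearMap.congr_fun h1 v
    exact h2
  obtain ⟨v₀, hv₀⟩ := exists_ne (0 : V)
  let W : Submodule K V := Submodule.span K (Set.range fun i : ℕ => (g ^ i) v₀)
  have hW : ∀ v ∈ W, u.1 v ∈ W := by
    intro v hv
    induction hv using Submodule.span_induction with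
    | mem x hx =>
      obtain ⟨i, rfl⟩ := hx
      refine Submodule.subset_span ⟨i + 1, ?_⟩
      change (g ^ (i + 1)) v₀ = g ((g ^ i) v₀)
      rw [pow_succ', Module.End.mul_apply]
    | zero => rw [map_zero]; exact W.zero_mem
    | add x y _ _ hx hy => rw [map_add]; exact W.add_mem hx hy
    | smul k x _ hx => rw [map_smul]; exact W.smul_mem k hx
  have hv₀W : v₀ ∈ W := Submodule.subset_span ⟨0, by simp⟩
  have hWtop : W = ⊤ := by
    rcases Cfsg.Agent.Lib.Singer.Basic.irreducible_of_primitive u hs rfl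
      (by rw [← Nat.card_eq_fintype_card]; exact hdvd)
      (by
        intro k hk hk2
        rw [← Nat.card_eq_fintype_card]
        exact hprim k hk hk2) hu hu1 W hW with h | h
    · rw [h, Submodule.mem_bot] at hv₀W
      exact absurd hv₀W hv₀
    · exact h
  refine ⟨⟨?_⟩⟩
  rintro ⟨a, ha⟩ ⟨b, hb⟩
  have hcomm : ∀ c (hc : c ∈ N), Commute (rhoK Θ hΘ ⟨c, hNC hc⟩) g := by
    intro c hc
    change _ * _ = _ * _
    rw [← map_mul, ← map_mul]
    congr 1
    apply Subtype.ext
    exact (hcen c hc).symm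
  have h1 := comm_of_cyclic g v₀ hWtop (hcomm a ha) (hcomm b hb)
  apply Subtype.ext
  apply eq_of_apply
  intro v
  exact LinearMap.congr_fun h1 v

/-- Counting fixed points. -/
theorem count_fixed {H : Type*} [Group H] [Finite H] {N : Subgroup H} (hN : N.Normal) {y : H}
    {s r : ℕ} (hs : s.Prime) (hy : y ^ s = 1) (hr : r.Prime) (hpg : IsPGroup r N) (hsr : s ≠ r)
    {m : ℕ} (hcard : Nat.card N = r ^ m * r ^ m * Nat.card (center N))
    (hZ : ∀ x : N, x ∈ center N → y * x = x * y) (hnc : ∃ x ∈ N, y * x ≠ x * y) :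
    ∃ j, 1 ≤ j ∧ j ≤ 2 * m ∧ s ∣ r ^ j - 1 ∧
      Nat.card ((centralizer {y}).subgroupOf N) * r ^ j = Nat.card N := by
  classical
  haveI := hN
  haveI : Fact s.Prime := ⟨hs⟩
  haveI : Fact r.Prime := ⟨hr⟩
  let D : Subgroup N := (centralizer {y}).subgroupOf N
  have hD : ∀ x : N, x ∈ D ↔ y * x = x * y := by
    intro x
    rw [Subgroup.mem_subgroupOf, mem_centralizer_singleton_iff]
    exact eq_comm
  let P : Subgroup H := zpowers y
  have hPp : IsPGroup s P := by
    rintro ⟨g, k, rfl⟩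
    refine ⟨1, Subtype.ext ?_⟩
    change ((y ^ k) ^ s ^ 1 : H) = 1
    rw [pow_one, ← zpow_natCast, ← zpow_mul, mul_comm, zpow_mul, zpow_natCast, hy, one_zpow]
  letI : MulAction P N := MulAction.compHom N ((MulAut.conjNormal : H →* MulAut N).comp P.subtype)
  have hact : ∀ (g : P) (x : N), ((g • x : N) : H) = (g : H) * x * (g : H)⁻¹ :=
    fun g x => MulAut.conjNormal_apply _ _
  have hmod := hPp.card_modEq_card_fixedPoints (α := N)
  have hfix : Nat.card (MulAction.fixedPoints P N) = Nat.card D := by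
    refine Nat.card_congr (Equiv.subtypeEquivRight ?_)
    intro x
    rw [hD, MulAction.mem_fixedPoints]
    constructor
    · intro h
      have h1 := h ⟨y, mem_zpowers y⟩
      have h2 : y * (x : H) * y⁻¹ = x := by
        have h3 := hact ⟨y, mem_zpowers y⟩ x
        rw [h1] at h3
        exact h3.symm
      rw [mul_inv_eq_iff_eq_mul] at h2
      exact h2
    · rintro h ⟨_, k, rfl⟩
      apply Subtype.ext
      rw [hact]
      have h1 : Commute y (x : H) := h
      have h2 : Commute (y ^ k) (x : H) := h1.zpow_left k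
      change y ^ k * (x : H) * (y ^ k)⁻¹ = x
      rw [h2.eq]
      simp
  rw [hfix] at hmod
  -- the powers
  obtain ⟨a, ha⟩ := IsPGroup.iff_card.mp hpg
  obtain ⟨b, hb⟩ := IsPGroup.iff_card.mp (hpg.to_subgroup D)
  obtain ⟨c, hc⟩ := IsPGroup.iff_card.mp (hpg.to_subgroup (center N))
  have hr2 := hr.two_le
  have hac : a = 2 * m + c := by
    have h1 : r ^ a = r ^ (2 * m + c) := by
      rw [← ha, hcard, hc, pow_add, two_mul, pow_add]
    exact Nat.pow_right_injective hr2 h1
  have hZD : center N ≤ D := fun x hx => (hD x).mpr (hZ x hx)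
  have hcb : c ≤ b := by
    have h1 := Subgroup.card_dvd_of_le hZD
    rw [hb, hc] at h1
    exact (Nat.pow_dvd_pow_iff_le_right (by omega)).mp h1
  have hDne : D ≠ ⊤ := by
    intro h
    obtain ⟨x, hx, hxy⟩ := hnc
    have : (⟨x, hx⟩ : N) ∈ D := by rw [h]; exact mem_top _
    exact hxy ((hD _).mp this)
  have hba : b < a := by
    have h1 : Nat.card D ≠ Nat.card N := fun h => hDne (Subgroup.eq_top_of_card_eq _ h)
    have h2 := Subgroup.card_subgroup_dvd_card D
    rw [hb, ha] at h2 h1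
    have h3 : b ≤ a := (Nat.pow_dvd_pow_iff_le_right (by omega)).mp h2
    rcases h3.lt_or_eq with h | h
    · exact h
    · rw [h] at h1
      exact absurd rfl h1
  refine ⟨a - b, by omega, by omega, ?_, ?_⟩
  · rw [ha, hb] at hmod
    have h1 : r ^ b ≤ r ^ a := Nat.pow_le_pow_right (by omega) hba.le
    have h2 : s ∣ r ^ a - r ^ b := (Nat.modEq_iff_dvd' h1).mp hmod.symm
    have h3 : r ^ a - r ^ b = r ^ b * (r ^ (a - b) - 1) := by
      rw [Nat.mul_sub, ← pow_add, mul_one]
      congr 2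
      omega
    rw [h3] at h2
    rcases hs.dvd_mul.mp h2 with h4 | h4
    · exact absurd ((Nat.prime_dvd_prime_iff_eq hs hr).mp (hs.dvd_of_dvd_pow h4)) hsr
    · exact h4
  · change Nat.card D * r ^ (a - b) = Nat.card N
    rw [hb, ha, ← pow_add]
    congr 1
    omega

include hΘ in
/-- The main lemma on elements of primitive prime order. -/
theorem y_lemma [Nontrivial V] (A : Subgroup H)
    (hAs : ∀ a ∈ A, ∃ k : K, ∀ v, (a : V ≃ₗ[ZMod p] V) v = k • v) {N : Subgroup H} (hNn : N.Normal)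
    (hNC : N ≤ Θ.ker) (hNna : ¬ IsMulCommutative N) {r : ℕ} (hr : r.Prime) (hpg : IsPGroup r N)
    (hz : ∀ x ∈ N, (∀ y ∈ N, x * y = y * x) → x ∈ A) {m : ℕ} (hm : 1 ≤ m)
    (hcard : Nat.card N = r ^ m * r ^ m * Nat.card (center N))
    {y : H} (hy : y ∈ Θ.ker) {s : ℕ} (hs : s.Prime) (hys : y ^ s = 1) (hy1 : y ≠ 1)
    (hdvd : s ∣ Nat.card K ^ finrank K V - 1)
    (hprim : ∀ k, 0 < k → k < finrank K V → ¬ s ∣ Nat.card K ^ k - 1)
    (hrs : r ^ m ∣ s - 1) :
    s = r ^ m + 1 ∧ ∀ x ∈ N, y * x = x * y → ∀ w ∈ N, x * w = w * x := by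
  classical
  haveI : Finite H := Cfsg.Agent.Lib.PermMod.MinNormal.finite_H H
  have hs2 := hs.two_le
  have hr2 := hr.two_le
  have hnc : ∃ x ∈ N, y * x ≠ x * y := by
    by_contra hall
    push Not at hall
    exact hNna (comm_of_prim_centralizer Θ hΘ hNC hy hs hys hy1 hdvd hprim hall)
  have hcenA : ∀ x : N, x ∈ center N → (x : H) ∈ A := by
    intro x hx
    refine hz x x.2 (fun w hw => ?_)
    have := (Subgroup.mem_center_iff.mp hx) ⟨w, hw⟩
    exact (congrArg Subtype.val this).symm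
  have hZ : ∀ x : N, x ∈ center N → y * x = x * y := by
    intro x hx
    obtain ⟨k, hk⟩ := hAs _ (hcenA x hx)
    exact (comm_of_scalar Θ hΘ hk hy).symm
  have hrle : r ≤ r ^ m := by
    calc r = r ^ 1 := (pow_one r).symm
      _ ≤ r ^ m := Nat.pow_le_pow_right (by omega) hm
  have hsr : s ≠ r := by
    have := Nat.le_of_dvd (by omega) hrs
    omega
  obtain ⟨j, hj1, hj2, hjd, hjc⟩ := count_fixed hNn hs hys hr hpg hsr hcard hZ hnc
  obtain ⟨h1, h2⟩ := Cfsg.Agent.Lib.Hup.Num.lemmaN hr2 hm hs hrs hj1 hj2 hjd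
  refine ⟨h1, ?_⟩
  intro x hx hxy w hw
  let D : Subgroup N := (centralizer {y}).subgroupOf N
  have hD : ∀ x : N, x ∈ D ↔ y * x = x * y := by
    intro x
    rw [Subgroup.mem_subgroupOf, mem_centralizer_singleton_iff]
    exact eq_comm
  have hZD : center N ≤ D := fun x hx => (hD x).mpr (hZ x hx)
  have hcD : Nat.card D = Nat.card (center N) := by
    have h3 : Nat.card D * (r ^ m * r ^ m) = Nat.card (center N) * (r ^ m * r ^ m) := by
      have h4 : r ^ j = r ^ m * r ^ m := by rw [h2, two_mul, pow_add]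
      rw [← h4]
      change Nat.card D * r ^ j = _
      rw [hjc, hcard, h4]
      ring
    exact Nat.eq_of_mul_eq_mul_right (by positivity) h3
  have hDZ : D = center N := (Subgroup.eq_of_le_of_card_ge hZD hcD.le).symm
  have hxc : (⟨x, hx⟩ : N) ∈ center N := by
    rw [← hDZ]
    exact (hD _).mpr hxy
  have := (Subgroup.mem_center_iff.mp hxc) ⟨w, hw⟩
  exact (congrArg Subtype.val this).symm

end Cfsg.Agent.Lib.Hup.Lin
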