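import Cfsg.Agent.Lib.Hup.Cnt
import Cfsg.Agent.Lib.Zsig.Basic

/-!
# The case of dimension at least three in Huppert's theorem
-/

set_option autoImplicit false
set_option linter.unusedSectionVars false
set_option linter.style.haveILetI false

namespace Cfsg.Agent.Lib.Hup.N3

open Module Subgroup
open Cfsg.Agent.Lib.Hup.Extra Cfsg.Agent.Lib.Hup.Struct Cfsg.Agent.Lib.Hup.Lin
  Cfsg.Agent.Lib.Hup.Ann Cfsg.Agent.Lib.Hup.Gamma Cfsg.Agent.Lib.Hup.Cnt

universe u

/-- A primitive prime divisor is congruent to one. -/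
theorem dvd_sub_one_of_prim {p n l : ℕ} (hp : p.Prime) (hl : l.Prime) (hn : 0 < n)
    (hd : l ∣ p ^ n - 1) (hprim : ∀ k, 0 < k → k < n → ¬ l ∣ p ^ k - 1) : n ∣ l - 1 := by
  have hp1 : 1 ≤ p ^ n := Nat.one_le_pow _ _ hp.pos
  have hlp : ¬ l ∣ p := by
    intro h
    have h1 : l ∣ p ^ n := dvd_pow h hn.ne'
    have h2 : l ∣ 1 := by
      have := (Nat.dvd_sub h1 hd)
      rwa [Nat.sub_sub_self hp1] at this
    exact hl.one_lt.ne' (Nat.dvd_one.mp h2)
  haveI : Fact l.Prime := ⟨hl⟩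
  have hf : l ∣ p ^ (l - 1) - 1 := by
    have h1 : ((p : ZMod l)) ≠ 0 := by
      rwa [Ne, ZMod.natCast_eq_zero_iff]
    have h2 := ZMod.pow_card_sub_one_eq_one h1
    have h3 : ((p ^ (l - 1) - 1 : ℕ) : ZMod l) = 0 := by
      rw [Nat.cast_sub (Nat.one_le_pow _ _ hp.pos)]
      simp [h2]
    exact (ZMod.natCast_eq_zero_iff _ _).mp h3
  have hg : l ∣ p ^ Nat.gcd n (l - 1) - 1 := by
    rw [← Nat.pow_sub_one_gcd_pow_sub_one]
    exact Nat.dvd_gcd hd hf
  have hg0 : 0 < Nat.gcd n (l - 1) := Nat.gcd_pos_of_pos_left _ hn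
  by_contra hne
  have hlt : Nat.gcd n (l - 1) < n := by
    have h1 := Nat.gcd_le_left (l - 1) hn
    have h2 : Nat.gcd n (l - 1) ≠ n := fun h => hne (Nat.gcd_eq_left_iff_dvd.mp h)
    omega
  exact hprim _ hg0 hlt hg

/-- The square of the prime does not divide the order. -/
theorem sq_not_dvd {H : Type*} [Group H] [Finite H] {N : Subgroup H} (hN : N.Normal) {s m : ℕ}
    (hs : s.Prime) (hpg : IsPGroup 2 N)
    (hcen : ∀ y : H, y ^ s = 1 → y ≠ 1 → ∀ x ∈ N, y * x = x * y → ∀ w ∈ N, x * w = w * x)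
    (hcard : Nat.card N = 2 ^ m * 2 ^ m * Nat.card (center N)) (hsm : s = 2 ^ m + 1)
    (hs5 : 5 ≤ s) : ¬ s ^ 2 ∣ Nat.card H := by
  classical
  intro hdvd
  haveI := hN
  haveI : Fact s.Prime := ⟨hs⟩
  haveI : Fact (Nat.Prime 2) := ⟨Nat.prime_two⟩
  obtain ⟨S₁, hS₁⟩ := Sylow.exists_subgroup_card_pow_prime s hdvd
  let X := {x : N // x ∉ center N}
  have hconjX : ∀ (g : H) (x : N), x ∉ center N → MulAut.conjNormal g x ∉ center N := by
    intro g x hx h
    apply hx
    rw [Subgroup.mem_center_iff] at h ⊢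
    intro u
    have h1 := h (MulAut.conjNormal g u)
    rw [← map_mul, ← map_mul] at h1
    exact (MulAut.conjNormal g).injective h1
  letI : MulAction S₁ X :=
    { smul := fun g x => ⟨MulAut.conjNormal (g : H) x.1, hconjX g x.1 x.2⟩
      one_smul := fun x => by
        apply Subtype.ext
        change MulAut.conjNormal ((1 : S₁) : H) x.1 = x.1
        simp
      mul_smul := fun a b x => by
        apply Subtype.ext
        change MulAut.conjNormal ((a * b : S₁) : H) x.1 =
          MulAut.conjNormal (a : H) (MulAut.conjNormal (b : H) x.1)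
        simp }
  have hsmul : ∀ (g : S₁) (x : X), (((g • x : X) : N) : H) = (g : H) * x.1 * (g : H)⁻¹ :=
    fun g x => MulAut.conjNormal_apply _ _
  have hfree : ∀ b : X, MulAction.stabilizer S₁ b = ⊥ := by
    intro b
    rw [eq_bot_iff]
    intro g hg
    rw [Subgroup.mem_bot]
    by_contra hg1
    have hgb : g • b = b := hg
    have h1 : (g : H) * b.1 * (g : H)⁻¹ = b.1 := by
      rw [← hsmul, hgb]
    have hcomm : Commute (g : H) (b.1 : H) := by
      change (g : H) * _ = _ * (g : H)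
      rwa [mul_inv_eq_iff_eq_mul] at h1
    have hord : orderOf g ∣ s ^ 2 := by
      rw [← hS₁]
      exact orderOf_dvd_natCard g
    obtain ⟨i, -, hi⟩ := (Nat.dvd_prime_pow hs).mp hord
    have hi0 : i ≠ 0 := by
      rintro rfl
      rw [pow_zero] at hi
      exact hg1 (orderOf_eq_one_iff.mp hi)
    obtain ⟨i', rfl⟩ : ∃ i', i = i' + 1 := ⟨i - 1, by omega⟩
    have hgH : orderOf (g : H) = s ^ (i' + 1) := by
      rw [← hi]
      exact Subgroup.orderOf_coe g
    let y : H := (g : H) ^ s ^ i'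
    have hy1 : y ^ s = 1 := by
      change ((g : H) ^ s ^ i') ^ s = 1
      rw [← pow_mul, ← pow_succ, ← hgH, pow_orderOf_eq_one]
    have hy2 : y ≠ 1 := by
      apply pow_ne_one_of_lt_orderOf (by positivity)
      rw [hgH, pow_succ]
      have := hs.two_le
      have h0 : 0 < s ^ i' := by positivity
      nlinarith
    have hcomm2 : y * (b.1 : H) = (b.1 : H) * y := (hcomm.pow_left _).eq
    apply b.2
    rw [Subgroup.mem_center_iff]
    rintro ⟨w, hw⟩
    apply Subtype.ext
    exact (hcen y hy1 hy2 _ b.1.2 hcomm2 w hw).symm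
  have hdvdX := Cfsg.Agent.Lib.PermMod.RegLin.card_dvd_of_free hfree
  rw [hS₁] at hdvdX
  -- the size of `X`
  have hXcard : Nat.card X = Nat.card N - Nat.card (center N) := by
    haveI := Fintype.ofFinite N
    rw [Nat.card_eq_fintype_card, Nat.card_eq_fintype_card, Nat.card_eq_fintype_card,
      Fintype.card_subtype_compl]
  set Z := Nat.card (center N) with hZ
  set e := 2 ^ m with he
  have hXe : Nat.card X = Z * ((s - 2) * s) := by
    rw [hXcard, hcard, hsm]
    have h1 : e + 1 - 2 = e - 1 := by omega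
    rw [h1]
    have he1 : 1 ≤ e := Nat.one_le_two_pow
    obtain ⟨e', he'⟩ : ∃ e', e = e' + 1 := ⟨e - 1, by omega⟩
    rw [he']
    simp only [Nat.add_sub_cancel]
    have : (e' + 1) * (e' + 1) * Z = Z * (e' * (e' + 1 + 1)) + Z := by ring
    omega
  rw [hXe] at hdvdX
  have h1 : s ∣ Z * (s - 2) := by
    have h2 : s * s ∣ (Z * (s - 2)) * s := by
      rw [pow_two] at hdvdX
      rwa [mul_assoc]
    exact Nat.dvd_of_mul_dvd_mul_right hs.pos h2
  obtain ⟨c, hc⟩ := IsPGroup.iff_card.mp (hpg.to_subgroup (center N))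
  have hsodd : ¬ s ∣ Z := by
    rw [hZ, hc]
    intro h
    have h2 := hs.dvd_of_dvd_pow h
    have h3 := Nat.le_of_dvd (by norm_num) h2
    omega
  rcases hs.dvd_mul.mp h1 with h2 | h2
  · exact hsodd h2
  · have := Nat.le_of_dvd (by omega) h2
    omega

variable {p : ℕ} [hp : Fact p.Prime] {V : Type u} [AddCommGroup V] [Module (ZMod p) V] [Finite V]
  {H : Subgroup (V ≃ₗ[ZMod p] V)}
  {K : Type u} [Field K] [Finite K] [Algebra (ZMod p) K] [Module K V]
  [IsScalarTower (ZMod p) K V]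
  (Θ : H →* (K ≃ₐ[ZMod p] K))
  (hΘ : ∀ (h : H) (k : K) (v : V), (h : V ≃ₗ[ZMod p] V) (k • v) = Θ h k • (h : V ≃ₗ[ZMod p] V) v)

include hΘ in
/-- The case of dimension at least three. -/
theorem case_large [Nontrivial V] (htr : Trans H) (A : Subgroup H)
    (hAs : ∀ a ∈ A, ∃ k : K, ∀ v, (a : V ≃ₗ[ZMod p] V) v = k • v)
    {N : Subgroup H} (hNn : N.Normal) (hNC : N ≤ Θ.ker) (hNna : ¬ IsMulCommutative N) {r : ℕ}
    (hr : r.Prime) (hpg : IsPGroup r N) (hz : ∀ x ∈ N, (∀ y ∈ N, x * y = y * x) → x ∈ A)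
    {m : ℕ} (hm : 1 ≤ m) (hdvd : r ^ m ∣ finrank K V)
    (hcard : Nat.card N = r ^ m * r ^ m * Nat.card (center N)) (hrK : r ∣ Nat.card K - 1)
    (hn : 3 ≤ finrank (ZMod p) V) : Nat.card V = 81 := by
  classical
  haveI : Finite H := Cfsg.Agent.Lib.PermMod.MinNormal.finite_H H
  haveI : Module.Finite K V := Module.Finite.of_finite
  haveI : Module.Finite (ZMod p) K := Module.Finite.of_finite
  haveI : Module.Finite (ZMod p) V := Module.Finite.of_finite
  have hpp : p.Prime := Fact.out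
  set f := finrank (ZMod p) K with hf
  set t := finrank K V with ht
  set n := finrank (ZMod p) V with hndef
  have hnft : f * t = n := Module.finrank_mul_finrank (ZMod p) K V
  have hf0 : 0 < f := Module.finrank_pos
  have ht0 : 0 < t := Module.finrank_pos
  have hKcard : Nat.card K = p ^ f := card_K
  have hKt : Nat.card K ^ t = p ^ n := by rw [hKcard, ← pow_mul, hnft]
  have hVcard : Nat.card V = p ^ n := by
    rw [Module.natCard_eq_pow_finrank (K := ZMod p) (V := V), Nat.card_zmod]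
  have hHdvd : p ^ n - 1 ∣ Nat.card H := by
    rw [← hVcard]
    exact card_dvd_of_trans htr
  -- the key step
  have hkey : ∀ s : ℕ, s.Prime → s ∣ Nat.card K ^ t - 1 →
      (∀ k, 0 < k → k < t → ¬ s ∣ Nat.card K ^ k - 1) → f < s → r ^ m ∣ s - 1 →
      s = r ^ m + 1 ∧ ∀ y : H, y ^ s = 1 → y ≠ 1 → ∀ x ∈ N, y * x = x * y → ∀ w ∈ N, x * w = w * x := by
    intro s hs hsd hsp hfs hrs
    have hsH : s ∣ Nat.card H := by
      rw [hKt] at hsd
      exact hsd.trans hHdvd
    haveI : Fact s.Prime := ⟨hs⟩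
    have hyker : ∀ y : H, y ^ s = 1 → y ∈ Θ.ker := by
      intro y hy
      have h1 : (Θ y) ^ s = 1 := by rw [← map_pow, hy, map_one]
      have h2 : (Θ y) ^ f = 1 := by
        rw [hf, ← card_gal]
        exact pow_card_eq_one'
      have h3 : Nat.Coprime s f := Nat.coprime_of_lt_prime hf0.ne' hfs hs
      have h4 := pow_gcd_eq_one.mpr ⟨h1, h2⟩
      rw [h3.gcd_eq_one, pow_one] at h4
      exact h4
    obtain ⟨y₀, hy₀⟩ := exists_prime_orderOf_dvd_card' (p := s) (G := H) hsH
    have hy₀s : y₀ ^ s = 1 := by rw [← hy₀]; exact pow_orderOf_eq_one y₀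
    have hy₀1 : y₀ ≠ 1 := by
      rintro rfl
      rw [orderOf_one] at hy₀
      exact hs.one_lt.ne hy₀
    refine ⟨(y_lemma Θ hΘ A hAs hNn hNC hNna hr hpg hz hm hcard (hyker _ hy₀s) hs hy₀s hy₀1 hsd hsp hrs).1,
      fun y hy hy1 => (y_lemma Θ hΘ A hAs hNn hNC hNna hr hpg hz hm hcard (hyker _ hy) hs hy hy1 hsd hsp hrs).2⟩
  by_cases h26 : p = 2 ∧ n = 6
  · -- the exceptional case of Zsigmondy's theorem
    exfalso
    obtain ⟨hp2, hn6⟩ := h26
    have hrne2 : r ≠ 2 := by
      rintro rfl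
      rw [hKcard, hp2] at hrK
      have h1 : 2 ∣ 2 ^ f := dvd_pow_self 2 hf0.ne'
      have h2 : 1 ≤ 2 ^ f := Nat.one_le_two_pow
      omega
    have ht6 : t ∣ 6 := ⟨f, by rw [← hn6, ← hnft, mul_comm]⟩
    have hrm6 : r ^ m ∣ 6 := hdvd.trans ht6
    have hr6 : r ∣ 6 := (dvd_pow_self r (by omega)).trans hrm6
    have hr3 : r = 3 := by
      have h1 : r ∣ 2 * 3 := hr6
      rcases hr.dvd_mul.mp h1 with h2 | h2
      · exact absurd ((Nat.prime_dvd_prime_iff_eq hr Nat.prime_two).mp h2) hrne2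
      · exact (Nat.prime_dvd_prime_iff_eq hr Nat.prime_three).mp h2
    subst hr3
    have hm1 : m = 1 := by
      by_contra hne
      have h1 : 3 ^ 2 ∣ 3 ^ m := pow_dvd_pow 3 (by omega)
      have h2 := h1.trans hrm6
      norm_num at h2
    subst hm1
    have h3t : 3 ∣ t := by simpa using hdvd
    have htle : t ≤ 6 := Nat.le_of_dvd (by norm_num) ht6
    obtain ⟨c, hc⟩ := h3t
    have hfc : f * c = 2 := by
      have h1 : f * (3 * c) = 6 := by rw [← hc, hnft, hn6]
      nlinarith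
    have hf2 : f = 2 := by
      have h1 : f ∣ 2 := ⟨c, hfc.symm⟩
      rcases (Nat.dvd_prime Nat.prime_two).mp h1 with h2 | h2
      · exfalso
        rw [hKcard, hp2, h2] at hrK
        norm_num at hrK
      · exact h2
    have hc1 : c = 1 := by
      rw [hf2] at hfc
      omega
    have ht3 : t = 3 := by rw [hc, hc1]
    have hK4 : Nat.card K = 4 := by rw [hKcard, hp2, hf2]; norm_num
    have := hkey 7 (by norm_num) (by rw [hK4, ht3]; norm_num) (by
      intro k hk hk3
      rw [ht3] at hk3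
      rw [hK4]
      interval_cases k <;> norm_num) (by rw [hf2]; norm_num) (by norm_num)
    omega
  -- the general case
  have hprim : ∀ l : ℕ, l.Prime → l ∣ p ^ n - 1 → (∀ k, 0 < k → k < n → ¬ l ∣ p ^ k - 1) →
      n ∣ l - 1 ∧ l = r ^ m + 1 ∧
      ∀ y : H, y ^ l = 1 → y ≠ 1 → ∀ x ∈ N, y * x = x * y → ∀ w ∈ N, x * w = w * x := by
    intro l hl hld hlp
    have h1 := dvd_sub_one_of_prim hpp hl (by omega) hld hlp
    have hle : n ≤ l - 1 := Nat.le_of_dvd (by have := hl.two_le; omega) h1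
    have hfn : f ≤ n := by
      rw [← hnft]
      exact Nat.le_mul_of_pos_right f ht0
    have htn : t ∣ n := ⟨f, by rw [← hnft, mul_comm]⟩
    have h2 := hkey l hl (by rw [hKt]; exact hld) (by
      intro k hk hk2
      rw [hKcard, ← pow_mul]
      apply hlp (f * k) (Nat.mul_pos hf0 hk)
      rw [← hnft]
      exact Nat.mul_lt_mul_of_pos_left hk2 hf0) (by omega) (hdvd.trans (htn.trans h1))
    exact ⟨h1, h2.1, h2.2⟩
  obtain ⟨s, hs, hsd, hsp⟩ := Cfsg.Agent.Lib.Zsig.Basic.zsigmondy_large p n hpp.two_le hn h26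
  obtain ⟨hns, hsm, hsy⟩ := hprim s hs hsd hsp
  have hns' : n ≤ s - 1 := Nat.le_of_dvd (by have := hs.two_le; omega) hns
  have hs4 : 4 ≤ s := by omega
  -- `r = 2`
  have hr2 : r = 2 := by
    rcases hr.eq_two_or_odd' with h | h
    · exact h
    · exfalso
      have h1 : Odd (r ^ m) := h.pow
      have h2 : Even s := by
        rw [hsm]
        exact h1.add_odd odd_one
      have h3 : s = 2 := (hs.even_iff.mp h2)
      omega
  subst hr2
  have hsm' : s - 1 = 2 ^ m := by omega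
  have hn2m : n = 2 ^ m := by
    have h1 : n ∣ 2 ^ m := hsm' ▸ hns
    have h2 : 2 ^ m ∣ n := hdvd.trans ⟨f, by rw [← hnft, mul_comm]⟩
    exact Nat.dvd_antisymm h1 h2
  have htn : t = n := by
    have h1 : t ∣ n := ⟨f, by rw [← hnft, mul_comm]⟩
    have h2 : n ∣ t := hn2m ▸ hdvd
    exact Nat.dvd_antisymm h1 h2
  have hf1 : f = 1 := by
    rw [htn] at hnft
    have h1 : 0 < n := by omega
    exact Nat.eq_of_mul_eq_mul_right h1 (by rw [hnft, one_mul])
  have hKp : Nat.card K = p := by rw [hKcard, hf1, pow_one]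
  have hp3 : 3 ≤ p := by
    rw [hKp] at hrK
    have h1 := hpp.two_le
    by_contra hlt
    have h2 : p = 2 := by omega
    rw [h2] at hrK
    norm_num at hrK
  have hpodd : Odd p := hpp.odd_of_ne_two (by omega)
  have hm2 : 2 ≤ m := by
    by_contra hlt
    have h1 : m = 1 := by omega
    rw [h1] at hn2m
    omega
  obtain ⟨h', hh'⟩ : ∃ h', m = h' + 2 := ⟨m - 2, by omega⟩
  -- the value of `h`
  set h := 2 ^ (h' + 1) with hh
  have hnh : n = 2 * h := by
    rw [hn2m, hh', hh]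
    ring
  have hh2 : 2 ≤ h := by
    rw [hh, pow_succ]
    have : 1 ≤ 2 ^ h' := Nat.one_le_two_pow
    omega
  set q := p ^ h with hq
  have hq3 : 3 ≤ q := by
    calc 3 ≤ p := hp3
      _ = p ^ 1 := (pow_one p).symm
      _ ≤ p ^ h := Nat.pow_le_pow_right (by omega) (by omega)
  have hn2 : p ^ n - 1 = (q - 1) * (q + 1) := by
    rw [hnh, two_mul, pow_add, ← hq]
    obtain ⟨q', hq'⟩ : ∃ q', q = q' + 1 := ⟨q - 1, by omega⟩
    rw [hq']
    simp only [Nat.add_sub_cancel]
    have : (q' + 1) * (q' + 1) = q' * (q' + 1 + 1) + 1 := by ring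
    omega
  -- odd primes dividing `q + 1` are primitive
  have hoddprim : ∀ l : ℕ, l.Prime → l ≠ 2 → l ∣ q + 1 → l = s := by
    intro l hl hl2 hlq
    have hld : l ∣ p ^ n - 1 := by
      rw [hn2]
      exact hlq.trans (dvd_mul_left _ _)
    have hlp : ∀ k, 0 < k → k < n → ¬ l ∣ p ^ k - 1 := by
      intro k hk hkn hlk
      have hg : l ∣ p ^ Nat.gcd k n - 1 := by
        rw [← Nat.pow_sub_one_gcd_pow_sub_one]
        exact Nat.dvd_gcd hlk hld
      have hgn : Nat.gcd k n ∣ 2 ^ m := hn2m ▸ Nat.gcd_dvd_right k n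
      obtain ⟨i, hi, hgi⟩ := (Nat.dvd_prime_pow Nat.prime_two).mp hgn
      have hgk : Nat.gcd k n ≤ k := Nat.gcd_le_left n hk
      have hilt : i ≤ h' + 1 := by
        by_contra hlt
        have h1 : i = m := by omega
        rw [h1] at hgi
        omega
      have hgh : Nat.gcd k n ∣ h := by
        rw [hgi, hh]
        exact pow_dvd_pow 2 hilt
      have hgq : p ^ Nat.gcd k n - 1 ∣ q - 1 := by
        have h1 := Nat.pow_sub_one_gcd_pow_sub_one p (Nat.gcd k n) h
        rw [Nat.gcd_eq_left hgh] at h1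
        rw [hq, ← h1]
        exact Nat.gcd_dvd_right _ _
      have h2 : l ∣ q - 1 := hg.trans hgq
      have h3 : l ∣ 2 := by
        have := Nat.dvd_sub hlq h2
        have h4 : q + 1 - (q - 1) = 2 := by omega
        rwa [h4] at this
      exact hl2 ((Nat.prime_dvd_prime_iff_eq hl Nat.prime_two).mp h3)
    have := (hprim l hl hld hlp).2.1
    rw [this, ← hsm]
  -- `q` is congruent to one modulo four
  have hq4 : q % 4 = 1 := by
    have h1 : q = (p ^ (2 ^ h')) ^ 2 := by
      rw [hq, hh, ← pow_mul, pow_succ]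
    have h2 : Odd (p ^ (2 ^ h')) := hpodd.pow
    obtain ⟨u, hu⟩ := h2
    rw [h1, hu]
    have : (2 * u + 1) ^ 2 = 4 * (u * u + u) + 1 := by ring
    rw [this]
    omega
  obtain ⟨w, hw⟩ : ∃ w, q + 1 = 2 * w := ⟨(q + 1) / 2, by omega⟩
  have hwodd : w % 2 = 1 := by omega
  have hw0 : w ≠ 0 := by omega
  have hwpow : w = s ^ w.primeFactorsList.length := by
    apply Nat.eq_prime_pow_of_unique_prime_dvd hw0
    intro d hd hdw
    apply hoddprim d hd
    · rintro rfl
      omega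
    · rw [hw]
      exact hdw.trans (dvd_mul_left _ _)
  set b := w.primeFactorsList.length with hb
  have hsq : ¬ s ^ 2 ∣ Nat.card H := by
    refine sq_not_dvd hNn (s := s) (m := m) hs hpg hsy hcard hsm ?_
    have : 2 ^ 2 ≤ 2 ^ m := Nat.pow_le_pow_right (by norm_num) hm2
    omega
  have hb1 : b = 1 := by
    have h1 : s ^ b ∣ Nat.card H := by
      rw [← hwpow]
      have h2 : w ∣ q + 1 := ⟨2, by rw [hw]; ring⟩
      exact h2.trans ((dvd_mul_left _ _).trans (hn2 ▸ hHdvd))
    have h2 : b < 2 := by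
      by_contra hge
      exact hsq ((pow_dvd_pow s (by omega)).trans h1)
    have h3 : b ≠ 0 := by
      intro h0
      rw [h0, pow_zero] at hwpow
      omega
    omega
  rw [hb1, pow_one] at hwpow
  have hfinal : p ^ h = 4 * h + 1 := by
    have h1 : s = n + 1 := by omega
    rw [← hq]
    omega
  obtain ⟨hh2', hp3'⟩ := Cfsg.Agent.Lib.Hup.Num.final_eq hp3 hh2 hfinal
  rw [hVcard, hnh, hh2', hp3']
  norm_num

end Cfsg.Agent.Lib.Hup.N3
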