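import Cfsg.Agent.Lib.Hup.N2
import Cfsg.Agent.Lib.Hup.N3
import Cfsg.Agent.S0688

/-!
# Huppert's theorem on solvable linear groups transitive on the non-zero vectors
-/

set_option autoImplicit false
set_option linter.unusedSectionVars false
set_option linter.style.haveILetI false

namespace Cfsg.Agent.Lib.Hup.Main

open Module Subgroup
open Cfsg.Agent.Lib.Hup.Extra Cfsg.Agent.Lib.Hup.Struct Cfsg.Agent.Lib.Hup.Lin
  Cfsg.Agent.Lib.Hup.Ann Cfsg.Agent.Lib.Hup.Gamma Cfsg.Agent.Lib.Hup.Cnt
  Cfsg.Agent.Lib.Hup.N2 Cfsg.Agent.Lib.Hup.N3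

universe u

variable {p : ℕ} [hp : Fact p.Prime] {V : Type u} [AddCommGroup V] [Module (ZMod p) V] [Finite V]
  {H : Subgroup (V ≃ₗ[ZMod p] V)}

/-- Huppert's theorem for subgroups of the general linear group. -/
theorem main_H [Nontrivial V] (htr : Trans H) (hsolv : Group.IsSolvable H) :
    (∃ (F : Type) (_ : Field F) (_ : Fintype F) (e : V ≃+ F),
      ∀ h : H, ∃ (a : F) (σ : F ≃+* F), ∀ v : V, e ((h : V ≃ₗ[ZMod p] V) v) = a * σ (e v)) ∨
    Nat.card V ∈ ({9, 25, 49, 121, 529, 81} : Set ℕ) := by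
  classical
  haveI : Finite H := Cfsg.Agent.Lib.PermMod.MinNormal.finite_H H
  haveI := hsolv
  have hpp : p.Prime := Fact.out
  obtain ⟨A, hAn, hAc, hAmax⟩ := Cfsg.Agent.S0688.exists_max_abelian H
  obtain ⟨K, _, _, _, _, _, Θ, hAs, hΘ, hΘc⟩ := exists_field htr A hAn hAc
  haveI := hAn
  haveI : Module.Finite K V := Module.Finite.of_finite
  haveI : Module.Finite (ZMod p) K := Module.Finite.of_finite
  haveI : Module.Finite (ZMod p) V := Module.Finite.of_finite
  have hAcen : ∀ a ∈ A, ∀ c ∈ Θ.ker, a * c = c * a := by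
    intro a ha c hc
    obtain ⟨k, hk⟩ := hAs a ha
    exact comm_of_scalar Θ hΘ hk hc
  have hmax : ∀ B : Subgroup H, B.Normal → IsMulCommutative B → B ≤ Θ.ker → B ≤ A := by
    intro B hBn hBc hBC
    haveI := hBn
    have hsupc : IsMulCommutative ↥(B ⊔ A) := by
      refine ⟨⟨?_⟩⟩
      rintro ⟨x, hx⟩ ⟨y, hy⟩
      obtain ⟨b, hb, a, ha, rfl⟩ := Subgroup.mem_sup_of_normal_right.mp hx
      obtain ⟨b', hb', a', ha', rfl⟩ := Subgroup.mem_sup_of_normal_right.mp hy
      apply Subtype.ext
      have h1 : a * b' = b' * a := hAcen a ha b' (hBC hb')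
      have h2 : a' * b = b * a' := hAcen a' ha' b (hBC hb)
      have h3 : b * b' = b' * b := congrArg Subtype.val (hBc.is_comm.comm ⟨b, hb⟩ ⟨b', hb'⟩)
      have h4 : a * a' = a' * a := congrArg Subtype.val (hAc.is_comm.comm ⟨a, ha⟩ ⟨a', ha'⟩)
      change b * a * (b' * a') = b' * a' * (b * a)
      calc b * a * (b' * a') = b * (a * b') * a' := by group
        _ = b * b' * (a * a') := by rw [h1]; group
        _ = b' * b * (a' * a) := by rw [h3, h4]
        _ = b' * (b * a') * a := by group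
        _ = b' * a' * (b * a) := by rw [← h2]; group
    have h1 := hAmax (B ⊔ A) inferInstance hsupc le_sup_right
    rw [← h1]
    exact le_sup_left
  by_cases ht1 : finrank K V = 1
  · left
    exact gamma_of_line Θ hΘ ht1
  right
  set f := finrank (ZMod p) K with hf
  set t := finrank K V with ht
  set n := finrank (ZMod p) V with hndef
  have hnft : f * t = n := Module.finrank_mul_finrank (ZMod p) K V
  have hf0 : 0 < f := Module.finrank_pos
  have ht0 : 0 < t := Module.finrank_pos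
  have ht2 : 2 ≤ t := by omega
  have hKcard : Nat.card K = p ^ f := card_K
  have hVcard : Nat.card V = Nat.card K ^ t := Module.natCard_eq_pow_finrank (K := K) (V := V)
  -- the kernel is not abelian
  have hCna : ¬ IsMulCommutative Θ.ker := by
    intro hc
    have hCA : Θ.ker ≤ A := hmax _ inferInstance hc le_rfl
    have h1 := card_dvd_of_scalars (K := K) Θ.ker (fun c h => hAs c (hCA h))
    have h2 : Θ.ker.index ∣ f := by
      rw [Subgroup.index_ker, hf, ← card_gal]
      exact Subgroup.card_subgroup_dvd_card _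
    have h3 := card_dvd_of_trans htr
    rw [hVcard, ← Θ.ker.card_mul_index] at h3
    set q := Nat.card K with hq
    have hq2 : 2 ≤ q := by
      rw [hKcard]
      calc 2 ≤ p := hpp.two_le
        _ = p ^ 1 := (pow_one p).symm
        _ ≤ p ^ f := Nat.pow_le_pow_right hpp.pos hf0
    have hqf : f < q := by
      rw [hKcard]
      calc f < 2 ^ f := Nat.lt_two_pow_self
        _ ≤ p ^ f := Nat.pow_le_pow_left hpp.two_le f
    have h4 : q ^ t - 1 ≤ (q - 1) * f := by
      have h5 : 0 < (q - 1) * f := Nat.mul_pos (by omega) hf0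
      exact Nat.le_of_dvd h5 (h3.trans (Nat.mul_dvd_mul h1 h2))
    have h5 : q ^ 2 ≤ q ^ t := Nat.pow_le_pow_right (by omega) ht2
    obtain ⟨q', hq'⟩ : ∃ q', q = q' + 1 := ⟨q - 1, by omega⟩
    rw [hq'] at h4 h5 hqf
    simp only [Nat.add_sub_cancel] at h4
    have h6 : (q' + 1) ^ 2 = q' * (q' + 1 + 1) + 1 := by ring
    have h7 : q' * (q' + 1 + 1) ≤ q' * f := by omega
    have h8 : 1 ≤ q' := by omega
    have h9 := Nat.le_of_mul_le_mul_left h7 h8
    omega
  obtain ⟨N, r, hNn, hNC, hNna, hr, hpg, hcomm, hz⟩ :=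
    struct_N A Θ.ker inferInstance hAcen hmax hCna
  obtain ⟨m, hm, hdvd, hcard, hrK⟩ := dim_of_struct Θ hΘ A hAs hNC hNna hr hpg hcomm hz
  by_cases hn3 : 3 ≤ n
  · have := case_large Θ hΘ htr A hAs hNn hNC hNna hr hpg hz hm hdvd hcard hrK hn3
    simp [this]
  · have hf1 : f = 1 := by
      by_contra hne
      have h1 : 2 ≤ f := by omega
      have h2 : 2 * 2 ≤ f * t := Nat.mul_le_mul h1 ht2
      omega
    have ht2' : t = 2 := by
      rw [hf1, one_mul] at hnft
      omega
    have hdvd' : r ^ m ∣ 2 := by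
      rw [← ht2']
      exact hdvd
    have hr2 : r = 2 := by
      have h1 : r ∣ 2 := (dvd_pow_self r (by omega)).trans hdvd'
      exact (Nat.prime_dvd_prime_iff_eq hr Nat.prime_two).mp h1
    subst hr2
    have hm1 : m = 1 := by
      by_contra hne
      have h1 : 2 ^ 2 ∣ 2 ^ m := pow_dvd_pow 2 (by omega)
      have h2 := h1.trans hdvd'
      norm_num at h2
    subst hm1
    have := case_n2 Θ hΘ htr A hAn hAs hmax hNn hNna hcomm hz hcard hrK hf1 ht2'
    simp only [Set.mem_insert_iff, Set.mem_singleton_iff] at this ⊢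
    omega

end Cfsg.Agent.Lib.Hup.Main
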