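import Cfsg.Agent.Lib.Hup.Cnt

/-!
# The two-dimensional case of Huppert's theorem
-/

set_option autoImplicit false
set_option linter.unusedSectionVars false
set_option linter.style.haveILetI false

namespace Cfsg.Agent.Lib.Hup.N2

open Module Subgroup
open Cfsg.Agent.Lib.Hup.Extra Cfsg.Agent.Lib.Hup.Struct Cfsg.Agent.Lib.Hup.Lin
  Cfsg.Agent.Lib.Hup.Ann Cfsg.Agent.Lib.Hup.Gamma Cfsg.Agent.Lib.Hup.Cnt

universe u

theorem card_mulAut_four {W : Type*} [Group W] [Finite W] (h : Nat.card W = 4) :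
    Nat.card (MulAut W) ∣ 6 := by
  classical
  haveI := Fintype.ofFinite W
  let X := {w : W // w ≠ 1}
  have hX : Fintype.card X = 3 := by
    rw [Fintype.card_subtype_compl, Fintype.card_subtype_eq]
    rw [Nat.card_eq_fintype_card] at h
    omega
  let φ : MulAut W →* Equiv.Perm X :=
    { toFun := fun f => Equiv.Perm.subtypePerm (p := fun w => w ≠ 1) f.toEquiv (fun w => by
        simp)
      map_one' := by
        ext x
        rfl
      map_mul' := fun f g => by
        ext x
        rfl }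
  have hφ : Function.Injective φ := by
    intro f g hfg
    ext w
    by_cases hw : w = 1
    · subst hw
      simp
    · have := congrArg (fun e : Equiv.Perm X => ((e ⟨w, hw⟩ : X) : W)) hfg
      exact this
  have h1 := Subgroup.card_dvd_of_injective φ hφ
  rwa [Nat.card_eq_fintype_card (α := Equiv.Perm X), Fintype.card_perm, hX] at h1

/-- The action on the central quotient. -/
theorem index_conj {H : Type*} [Group H] [Finite H] {N : Subgroup H} (hN : N.Normal)
    (hc : (center N).index = 4) :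
    ∃ D : Subgroup H, D.index ∣ 6 ∧ ∀ d ∈ D, ∀ x ∈ N, ∀ w ∈ N, cm d x * w = w * cm d x := by
  classical
  haveI := hN
  let W := N ⧸ center N
  have hW : Nat.card W = 4 := hc
  let conjW : H → MulAut W := fun h =>
    QuotientGroup.congr (center N) (center N) (MulAut.conjNormal h)
      (Subgroup.characteristic_iff_map_eq.mp inferInstance _)
  have happ : ∀ (h : H) (x : N), conjW h (x : W) = ((MulAut.conjNormal h x : N) : W) :=
    fun h x => rfl
  let Ψ : H →* MulAut W :=
    { toFun := conjW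
      map_one' := by
        ext x
        obtain ⟨x, rfl⟩ := QuotientGroup.mk_surjective x
        rw [happ, map_one]
        rfl
      map_mul' := fun a b => by
        ext x
        obtain ⟨x, rfl⟩ := QuotientGroup.mk_surjective x
        rw [MulAut.mul_apply, happ, happ, happ, map_mul]
        rfl }
  refine ⟨Ψ.ker, ?_, ?_⟩
  · rw [Subgroup.index_ker]
    exact (Subgroup.card_subgroup_dvd_card Ψ.range).trans (card_mulAut_four hW)
  · intro d hd x hx w hw
    have h1 : Ψ d = 1 := hd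
    have h2 : conjW d ((⟨x, hx⟩ : N) : W) = ((⟨x, hx⟩ : N) : W) := by
      change Ψ d _ = _
      rw [h1]
      rfl
    rw [happ] at h2
    have h3 := QuotientGroup.eq.mp h2
    set c : N := (MulAut.conjNormal d ⟨x, hx⟩ : N)⁻¹ * ⟨x, hx⟩ with hcdef
    have hcc : ∀ g : N, g * c = c * g := Subgroup.mem_center_iff.mp h3
    have h4 : ((MulAut.conjNormal d ⟨x, hx⟩ : N) : H) = d * x * d⁻¹ :=
      MulAut.conjNormal_apply _ _
    have h5 : (c : H) = (d * x * d⁻¹)⁻¹ * x := by
      rw [hcdef, ← h4]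
      rfl
    have h6 : d * x * d⁻¹ = x * (c : H)⁻¹ := by
      rw [h5]
      group
    have h7 : cm d x = (c : H)⁻¹ := by
      unfold cm
      rw [h6]
      have h8 := congrArg Subtype.val (hcc ⟨x, hx⟩)
      have h9 : x * (c : H) = c * x := h8
      have h10 : x * (c : H)⁻¹ * x⁻¹ = (c : H)⁻¹ := by
        have : (c : H)⁻¹ * x = x * (c : H)⁻¹ := by
          rw [inv_mul_eq_iff_eq_mul, ← mul_assoc, ← h9, mul_assoc, mul_inv_cancel, mul_one]
        rw [← this]
        simp
      exact h10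
    rw [h7]
    have h8 := congrArg Subtype.val (hcc ⟨w, hw⟩)
    have h9 : w * (c : H) = c * w := h8
    rw [inv_mul_eq_iff_eq_mul, ← mul_assoc, ← h9, mul_assoc, mul_inv_cancel, mul_one]

theorem arith_p {p : ℕ} (hp : p.Prime) (hp2 : p ≠ 2) (h : p + 1 ∣ 24) :
    p ^ 2 ∈ ({9, 25, 49, 121, 529} : Set ℕ) := by
  have h3 : p ≤ 23 := by
    have := Nat.le_of_dvd (by norm_num) h
    omega
  simp only [Set.mem_insert_iff, Set.mem_singleton_iff]
  interval_cases p <;> revert hp hp2 h <;> norm_num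

variable {p : ℕ} [hp : Fact p.Prime] {V : Type u} [AddCommGroup V] [Module (ZMod p) V] [Finite V]
  {H : Subgroup (V ≃ₗ[ZMod p] V)}
  {K : Type u} [Field K] [Finite K] [Algebra (ZMod p) K] [Module K V]
  [IsScalarTower (ZMod p) K V]
  (Θ : H →* (K ≃ₐ[ZMod p] K))
  (hΘ : ∀ (h : H) (k : K) (v : V), (h : V ≃ₗ[ZMod p] V) (k • v) = Θ h k • (h : V ≃ₗ[ZMod p] V) v)

include hΘ in
/-- The case of dimension two. -/
theorem case_n2 [Nontrivial V] (htr : Trans H) (A : Subgroup H) (hAn : A.Normal)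
    (hAs : ∀ a ∈ A, ∃ k : K, ∀ v, (a : V ≃ₗ[ZMod p] V) v = k • v)
    (hmax : ∀ B : Subgroup H, B.Normal → IsMulCommutative B → B ≤ Θ.ker → B ≤ A)
    {N : Subgroup H} (hNn : N.Normal) (hNna : ¬ IsMulCommutative N)
    (hcomm : ∀ x ∈ N, ∀ y ∈ N, cm x y ∈ A ∧ (cm x y) ^ 2 = 1)
    (hz : ∀ x ∈ N, (∀ y ∈ N, x * y = y * x) → x ∈ A)
    (hcard : Nat.card N = 2 ^ 1 * 2 ^ 1 * Nat.card (center N)) (hrK : 2 ∣ Nat.card K - 1)
    (hf : finrank (ZMod p) K = 1) (ht : finrank K V = 2) :
    Nat.card V ∈ ({9, 25, 49, 121, 529} : Set ℕ) := by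
  classical
  haveI : Finite H := Cfsg.Agent.Lib.PermMod.MinNormal.finite_H H
  haveI : Module.Finite K V := Module.Finite.of_finite
  haveI := hAn
  haveI := hNn
  have hcardK : Nat.card K = p := by rw [card_K (p := p), hf, pow_one]
  have hker : ∀ h : H, h ∈ Θ.ker := by
    intro h
    have h1 : Nat.card (K ≃ₐ[ZMod p] K) = 1 := by rw [card_gal, hf]
    haveI := (Nat.card_eq_one_iff_unique.mp h1).1
    exact Subsingleton.elim _ _
  have hp2 : p ≠ 2 := by
    rintro rfl
    rw [hcardK] at hrK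
    norm_num at hrK
  have hcenA : ∀ a ∈ A, ∀ c : H, a * c = c * a := by
    intro a ha c
    obtain ⟨k, hk⟩ := hAs a ha
    exact comm_of_scalar Θ hΘ hk (hker c)
  obtain ⟨v₀, hv₀⟩ := exists_ne (0 : V)
  have hsm : ∀ k l : K, k • v₀ = l • v₀ → k = l := by
    intro k l h
    have h4 : (k - l) • v₀ = 0 := by rw [sub_smul, h, sub_self]
    have := (smul_eq_zero.mp h4).resolve_right hv₀
    exact sub_eq_zero.mp this
  -- noncommuting elements
  obtain ⟨x₀, hx₀, y₀, hy₀, hne⟩ : ∃ x₀ ∈ N, ∃ y₀ ∈ N, x₀ * y₀ ≠ y₀ * x₀ := by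
    by_contra hall
    push Not at hall
    apply hNna
    refine ⟨⟨?_⟩⟩
    rintro ⟨a, ha⟩ ⟨b, hb⟩
    exact Subtype.ext (hall a ha b hb)
  set z := cm x₀ y₀ with hzdef
  have hz1 : z ≠ 1 := fun h => hne (cm_eq_one.mp h)
  obtain ⟨hzA, hz2⟩ := hcomm x₀ hx₀ y₀ hy₀
  rw [← hzdef] at hzA hz2
  obtain ⟨ζ, hζ⟩ := hAs z hzA
  have hζ1 : ζ ≠ 1 := by
    rintro rfl
    apply hz1
    apply eq_of_apply
    intro v
    rw [hζ, one_smul]
    rfl
  have hsqA : ∀ a ∈ A, a ^ 2 = 1 → a = 1 ∨ a = z := by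
    intro a ha ha2
    obtain ⟨α, hα⟩ := hAs a ha
    have h1 : ∀ {a : H} {α : K}, (∀ v, (a : V ≃ₗ[ZMod p] V) v = α • v) → a ^ 2 = 1 → α ^ 2 = 1 := by
      intro a α hα ha2
      apply hsm
      rw [← scalar_pow hα, ha2, one_smul]
      rfl
    have h2 := h1 hα ha2
    have h3 := h1 hζ hz2
    have h4 : ζ = -1 := by
      have : (ζ - 1) * (ζ + 1) = 0 := by ring_nf; rw [h3]; ring
      rcases mul_eq_zero.mp this with h | h
      · exact absurd (sub_eq_zero.mp h) hζ1
      · exact eq_neg_of_add_eq_zero_left h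
    have h5 : (α - 1) * (α + 1) = 0 := by ring_nf; rw [h2]; ring
    rcases mul_eq_zero.mp h5 with h | h
    · left
      have h6 : α = 1 := sub_eq_zero.mp h
      apply eq_of_apply
      intro v
      rw [hα, h6, one_smul]
      rfl
    · right
      have h6 : α = -1 := eq_neg_of_add_eq_zero_left h
      apply eq_of_apply
      intro v
      rw [hα, hζ, h6, h4]
  -- squares are central
  have hcmN : ∀ x ∈ N, ∀ y ∈ N, cm x y ∈ N := fun x hx y hy =>
    N.mul_mem (N.mul_mem (N.mul_mem hx hy) (N.inv_mem hx)) (N.inv_mem hy)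
  have hxsq : ∀ x ∈ N, x * x ∈ A := by
    intro x hx
    apply hz _ (N.mul_mem hx hx)
    intro y hy
    apply cm_eq_one.mp
    rw [cm_mul_of_central (hcenA _ (hcomm x hx y hy).1 x), ← pow_two]
    exact (hcomm x hx y hy).2
  -- the squares of the commutators
  have hstep1 : ∀ (d : H), ∀ x ∈ N, cm d x ∈ A → (cm d x) ^ 2 = 1 := by
    intro d x hx ha
    set a := cm d x with hadef
    have h1 : d * x = a * x * d := by
      rw [hadef]
      unfold cm
      group
    have h2 : (x * x) * d = d * (x * x) := hcenA _ (hxsq x hx) d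
    have h3 : d * (x * x) = a * a * (x * x * d) := by
      calc d * (x * x) = (d * x) * x := by group
        _ = (a * x * d) * x := by rw [← h1]
        _ = a * x * (d * x) := by group
        _ = a * x * (a * x * d) := by rw [← h1]
        _ = a * (x * a) * (x * d) := by group
        _ = a * (a * x) * (x * d) := by rw [(hcenA a ha x)]
        _ = a * a * (x * x * d) := by group
    rw [← h2] at h3
    rw [pow_two]
    exact mul_eq_right.mp h3.symm
  -- the commutators of the generators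
  have hyx : cm y₀ x₀ = z := by
    have h1 : cm y₀ x₀ = z⁻¹ := by
      rw [hzdef]
      unfold cm
      group
    rw [h1]
    rw [pow_two] at hz2
    exact inv_eq_of_mul_eq_one_left hz2
  have hcc : ∀ x : H, cm x x = 1 := fun x => by simp [cm]
  have hone : ∀ x : H, cm (1 : H) x = 1 := fun x => by simp [cm]
  have hxyx : cm (x₀ * y₀) x₀ = z := by
    rw [cm_mul_of_central (hcenA _ (hcomm y₀ hy₀ x₀ hx₀).1 x₀), hyx, hcc, mul_one]
  have hxyy : cm (x₀ * y₀) y₀ = z := by
    rw [cm_mul_of_central (hcenA _ (hcomm y₀ hy₀ y₀ hy₀).1 x₀), hcc, one_mul]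
  -- the subgroup of scalars
  let B : Subgroup H :=
    { carrier := {h | ∃ k : K, ∀ v, (h : V ≃ₗ[ZMod p] V) v = k • v}
      one_mem' := ⟨1, fun v => by rw [one_smul]; rfl⟩
      mul_mem' := by
        rintro a b ⟨k, hk⟩ ⟨l, hl⟩
        exact ⟨k * l, fun v => by rw [mul_apply', hl, smul_of_ker Θ hΘ (hker a), hk, smul_smul, mul_comm]⟩
      inv_mem' := by
        rintro a ⟨k, hk⟩
        have hk0 : k ≠ 0 := by
          rintro rfl
          have h1 := hk v₀
          rw [zero_smul, map_eq_zero_iff _ (a : V ≃ₗ[ZMod p] V).injective] at h1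
          exact hv₀ h1
        refine ⟨k⁻¹, fun v => ?_⟩
        have h1 : (a : V ≃ₗ[ZMod p] V) (((a⁻¹ : H) : V ≃ₗ[ZMod p] V) v) = v := by
          rw [← mul_apply']
          simp
        have h2 : (a : V ≃ₗ[ZMod p] V) (k⁻¹ • v) = v := by
          rw [hk, smul_smul, mul_inv_cancel₀ hk0, one_smul]
        exact (a : V ≃ₗ[ZMod p] V).injective (h1.trans h2.symm) }
  have hBmem : ∀ h, h ∈ B ↔ ∃ k : K, ∀ v, (h : V ≃ₗ[ZMod p] V) v = k • v := fun h => Iff.rfl
  have hBn : B.Normal := by
    constructor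
    rintro b ⟨k, hk⟩ g
    refine ⟨k, fun v => ?_⟩
    have h1 : ((g * b * g⁻¹ : H) : V ≃ₗ[ZMod p] V) v =
        (g : V ≃ₗ[ZMod p] V) ((b : V ≃ₗ[ZMod p] V) (((g⁻¹ : H) : V ≃ₗ[ZMod p] V) v)) := rfl
    rw [h1, hk, smul_of_ker Θ hΘ (hker g), ← mul_apply']
    simp
  have hBc : IsMulCommutative B := by
    refine ⟨⟨?_⟩⟩
    rintro ⟨a, k, hk⟩ ⟨b, hb⟩
    apply Subtype.ext
    exact comm_of_scalar Θ hΘ hk (hker b)
  have hBA : B ≤ A := hmax B hBn hBc (fun h _ => hker h)
  -- the centralizer of the generators consists of scalars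
  have hscal : ∀ d : H, d * x₀ = x₀ * d → d * y₀ = y₀ * d → d ∈ A := by
    intro d hdx hdy
    apply hBA
    let r := rhoK Θ hΘ
    let g : Module.End K V := r ⟨d, hker d⟩
    have hcommg : ∀ c : H, d * c = c * d → Commute (r ⟨c, hker c⟩) g := by
      intro c hc
      change _ * _ = _ * _
      rw [← map_mul, ← map_mul]
      congr 1
      apply Subtype.ext
      exact hc.symm
    have hnl : ∀ v, ¬ LinearIndependent K ![v, g v] := by
      intro v hli
      have hspan : Submodule.span K (Set.range ![v, g v]) = ⊤ :=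
        hli.span_eq_top_of_card_eq_finrank (by simp [ht])
      have hspan2 : Submodule.span K (Set.range fun i : ℕ => (g ^ i) v) = ⊤ := by
        rw [eq_top_iff, ← hspan]
        apply Submodule.span_mono
        rintro _ ⟨i, rfl⟩
        fin_cases i
        · exact ⟨0, by simp⟩
        · exact ⟨1, by simp⟩
      have h1 := comm_of_cyclic g v hspan2 (hcommg x₀ hdx) (hcommg y₀ hdy)
      apply hne
      apply eq_of_apply
      intro w
      exact LinearMap.congr_fun h1 w
    obtain ⟨k, hk⟩ := LinearMap.exists_eq_smul_id_of_forall_notLinearIndependent hnl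
    refine ⟨k, fun v => ?_⟩
    have := LinearMap.congr_fun hk v
    exact this
  -- the subgroup acting trivially on the central quotient
  have hcenidx : (center N).index = 4 := by
    have h1 := (center N).card_mul_index
    rw [hcard] at h1
    have h2 : 0 < Nat.card (center N) := Nat.card_pos
    have h3 : Nat.card (center N) * (center N).index = Nat.card (center N) * 4 := by
      rw [h1]
      ring
    exact Nat.eq_of_mul_eq_mul_left h2 h3
  obtain ⟨D, hD6, hD⟩ := index_conj hNn hcenidx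
  have hDle : D ≤ N ⊔ A := by
    intro d hd
    have hcmA : ∀ x ∈ N, cm d x ∈ A := by
      intro x hx
      apply hz _ _ (hD d hd x hx)
      have h1 : d * x * d⁻¹ ∈ N := hNn.conj_mem x hx d
      exact N.mul_mem h1 (N.inv_mem hx)
    have hpair : ∃ n ∈ N, cm n x₀ = cm d x₀ ∧ cm n y₀ = cm d y₀ := by
      rcases hsqA _ (hcmA x₀ hx₀) (hstep1 d x₀ hx₀ (hcmA x₀ hx₀)) with h1 | h1 <;>
        rcases hsqA _ (hcmA y₀ hy₀) (hstep1 d y₀ hy₀ (hcmA y₀ hy₀)) with h2 | h2
      · exact ⟨1, N.one_mem, by rw [hone, h1], by rw [hone, h2]⟩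
      · exact ⟨x₀, hx₀, by rw [hcc, h1], by rw [h2]⟩
      · exact ⟨y₀, hy₀, by rw [hyx, h1], by rw [hcc, h2]⟩
      · exact ⟨x₀ * y₀, N.mul_mem hx₀ hy₀, by rw [hxyx, h1], by rw [hxyy, h2]⟩
    obtain ⟨n, hn, hn1, hn2⟩ := hpair
    have hkey : ∀ x : H, cm n x = cm d x → n⁻¹ * d * x = x * (n⁻¹ * d) := by
      intro x hx
      have h1 : d * x = cm d x * x * d := by
        unfold cm
        group
      have h2 : n * x * n⁻¹ = cm n x * x := by
        unfold cm
        group
      calc n⁻¹ * d * x = n⁻¹ * (d * x) := by group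
        _ = n⁻¹ * (cm d x * x * d) := by rw [h1]
        _ = n⁻¹ * ((n * x * n⁻¹) * d) := by rw [h2, hx]
        _ = x * (n⁻¹ * d) := by group
    have hd' : n⁻¹ * d ∈ A := hscal _ (hkey x₀ hn1) (hkey y₀ hn2)
    have : d = n * (n⁻¹ * d) := by group
    rw [this]
    exact (N ⊔ A).mul_mem (Subgroup.mem_sup_left hn) (Subgroup.mem_sup_right hd')
  -- the index of `A`
  have hAN : A.subgroupOf N = center N := by
    ext x
    rw [Subgroup.mem_subgroupOf, Subgroup.mem_center_iff]
    constructor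
    · intro hx g
      exact Subtype.ext (hcenA _ hx g).symm
    · intro hx
      apply hz _ x.2
      intro y hy
      exact (congrArg Subtype.val (hx ⟨y, hy⟩)).symm
  have hrel : A.relIndex (N ⊔ A) = 4 := by
    rw [Subgroup.relIndex_sup_right]
    change (A.subgroupOf N).index = 4
    rw [hAN, hcenidx]
  have hAidx : A.index ∣ 24 := by
    have h1 := Subgroup.relIndex_mul_index (le_sup_right : A ≤ N ⊔ A)
    rw [hrel] at h1
    rw [← h1]
    have h2 : (N ⊔ A).index ∣ 6 := (Subgroup.index_dvd_of_le hDle).trans hD6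
    exact Nat.mul_dvd_mul_left 4 h2
  have hAcard : Nat.card A ∣ p - 1 := by
    have := card_dvd_of_scalars (K := K) A hAs
    rwa [hcardK] at this
  -- the arithmetic
  have hVcard : Nat.card V = p ^ 2 := by
    rw [Module.natCard_eq_pow_finrank (K := K) (V := V), hcardK, ht]
  have hdvd := card_dvd_of_trans htr
  rw [hVcard, ← A.card_mul_index] at hdvd
  have hp2' := (Fact.out : p.Prime).two_le
  have hpp : p ^ 2 - 1 = (p - 1) * (p + 1) := by
    obtain ⟨q, rfl⟩ : ∃ q, p = q + 1 := ⟨p - 1, by omega⟩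
    simp only [Nat.add_sub_cancel]
    have : (q + 1) ^ 2 = q * (q + 1 + 1) + 1 := by ring
    omega
  rw [hpp] at hdvd
  have h1 : (p - 1) * (p + 1) ∣ (p - 1) * 24 :=
    hdvd.trans (Nat.mul_dvd_mul hAcard hAidx)
  have h2 : p + 1 ∣ 24 := Nat.dvd_of_mul_dvd_mul_left (by omega) h1
  rw [hVcard]
  exact arith_p Fact.out hp2 h2

end Cfsg.Agent.Lib.Hup.N2
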