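import Cfsg.Agent.Lib.Hup.Extra

/-!
# Minimal non-abelian normal subgroups in solvable groups
-/

set_option autoImplicit false
set_option linter.unusedSectionVars false
set_option linter.style.haveILetI false

namespace Cfsg.Agent.Lib.Hup.Struct

open Subgroup
open Cfsg.Agent.Lib.Hup.Extra

variable {H : Type*} [Group H] [Finite H]

theorem exists_min (C : Subgroup H) (hCn : C.Normal) (hC : ¬ IsMulCommutative C) :
    ∃ N : Subgroup H, N.Normal ∧ N ≤ C ∧ ¬ IsMulCommutative N ∧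
      ∀ M : Subgroup H, M.Normal → M ≤ N → ¬ IsMulCommutative M → M = N := by
  classical
  haveI : Finite (Subgroup H) := Finite.of_injective (fun U => (U : Set H)) SetLike.coe_injective
  let s : Set (Subgroup H) := {B | B.Normal ∧ B ≤ C ∧ ¬ IsMulCommutative B}
  obtain ⟨N, hN⟩ := (Set.toFinite s).exists_minimal ⟨C, hCn, le_refl _, hC⟩
  refine ⟨N, hN.1.1, hN.1.2.1, hN.1.2.2, fun M hM hle hMc => ?_⟩
  exact le_antisymm hle (hN.2 ⟨hM, hle.trans hN.1.2.1, hMc⟩ hle)

theorem comm_solv [Group.IsSolvable H] {N : Subgroup H} (hNn : N.Normal)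
    (hNna : ¬ IsMulCommutative N)
    (hNmin : ∀ M : Subgroup H, M.Normal → M ≤ N → ¬ IsMulCommutative M → M = N) :
    IsMulCommutative (⁅N, N⁆ : Subgroup H) := by
  by_contra hcon
  haveI := hNn
  have h1 : ⁅N, N⁆ = N := hNmin _ inferInstance (Subgroup.commutator_le_left N N) hcon
  have h2 : ∀ n, N ≤ derivedSeries H n := by
    intro n
    induction n with
    | zero => exact le_top
    | succ n ih =>
      rw [derivedSeries_succ, ← h1]
      exact Subgroup.commutator_mono ih ih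
  obtain ⟨n, hn⟩ := (Group.isSolvable_def H).mp inferInstance
  have h3 := h2 n
  rw [hn, le_bot_iff] at h3
  apply hNna
  rw [h3]
  infer_instance

theorem cm_mul_of_central {a b y : H} (h : cm b y * a = a * cm b y) :
    cm (a * b) y = cm b y * cm a y := by
  have h1 : cm (a * b) y = a * cm b y * a⁻¹ * cm a y := by
    unfold cm
    group
  rw [h1, ← h]
  simp

/-- The structure of a minimal non-abelian normal subgroup. -/
theorem struct_N [Group.IsSolvable H] (A C : Subgroup H) (hC : C.Normal)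
    (hAcen : ∀ a ∈ A, ∀ c ∈ C, a * c = c * a)
    (hmax : ∀ B : Subgroup H, B.Normal → IsMulCommutative B → B ≤ C → B ≤ A)
    (hCna : ¬ IsMulCommutative C) :
    ∃ (N : Subgroup H) (r : ℕ), N.Normal ∧ N ≤ C ∧ ¬ IsMulCommutative N ∧ r.Prime ∧ IsPGroup r N ∧
      (∀ x ∈ N, ∀ y ∈ N, cm x y ∈ A ∧ (cm x y) ^ r = 1) ∧
      (∀ x ∈ N, (∀ y ∈ N, x * y = y * x) → x ∈ A) := by
  classical
  obtain ⟨N, hNn, hNC, hNna, hNmin⟩ := exists_min C hC hCna
  haveI := hNn
  have hcomm := comm_solv hNn hNna hNmin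
  have hcl : ⁅N, N⁆ ≤ A :=
    hmax _ inferInstance hcomm ((Subgroup.commutator_le_left N N).trans hNC)
  have hcN : ∀ x ∈ N, ∀ y ∈ N, cm x y ∈ N := fun x hx y hy =>
    Subgroup.commutator_le_left N N (Subgroup.commutator_mem_commutator hx hy)
  have hcA : ∀ x ∈ N, ∀ y ∈ N, cm x y ∈ A := fun x hx y hy =>
    hcl (Subgroup.commutator_mem_commutator hx hy)
  have hcen : ∀ x ∈ N, ∀ y ∈ N, ∀ d ∈ N, cm x y * d = d * cm x y :=
    fun x hx y hy d hd => hAcen _ (hcA x hx y hy) d (hNC hd)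
  -- the centre
  have hzA : ∀ x ∈ N, (∀ y ∈ N, x * y = y * x) → x ∈ A := by
    let Z : Subgroup H := (center N).map N.subtype
    have hZn : Z.Normal := inferInstance
    have hZc : IsMulCommutative Z := by
      refine ⟨⟨?_⟩⟩
      rintro ⟨_, a, ha, rfl⟩ ⟨_, b, hb, rfl⟩
      apply Subtype.ext
      have := (Subgroup.mem_center_iff.mp ha) b
      exact (congrArg Subtype.val this).symm
    have hZC : Z ≤ C := by
      rintro _ ⟨a, -, rfl⟩
      exact hNC a.2
    have hZA := hmax Z hZn hZc hZC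
    intro x hx hxc
    apply hZA
    refine ⟨⟨x, hx⟩, ?_, rfl⟩
    rw [SetLike.mem_coe, Subgroup.mem_center_iff]
    rintro ⟨y, hy⟩
    exact Subtype.ext (hxc y hy).symm
  -- nilpotency
  have hnil : Group.IsNilpotent N := by
    rw [Subgroup.nilpotent_iff_lowerCentralSeries]
    refine ⟨2, ?_⟩
    have h1 : Subgroup.lowerCentralSeries (⊤ : Subgroup N) 1 ≤ center N := by
      change ⁅(⊤ : Subgroup N), (⊤ : Subgroup N)⁆ ≤ center N
      rw [Subgroup.commutator_le]
      rintro ⟨a, ha⟩ - ⟨b, hb⟩ -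
      rw [Subgroup.mem_center_iff]
      rintro ⟨d, hd⟩
      apply Subtype.ext
      exact (hcen a ha b hb d hd).symm
    change ⁅Subgroup.lowerCentralSeries (⊤ : Subgroup N) 1, (⊤ : Subgroup N)⁆ = ⊥
    rw [eq_bot_iff, Subgroup.commutator_le]
    intro g₁ hg₁ g₂ _
    have h2 := (Subgroup.mem_center_iff.mp (h1 hg₁)) g₂
    rw [Subgroup.mem_bot, commutatorElement_def, mul_inv_eq_one, mul_inv_eq_iff_eq_mul]
    exact h2.symm
  -- a non-abelian Sylow subgroup
  have hP : ∃ (r : ℕ) (_ : Fact r.Prime) (P : Sylow r N), ¬ IsMulCommutative (P : Subgroup N) := by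
    by_contra hall
    push Not at hall
    have hF (p : (Nat.card N).primeFactors) : Fact p.1.Prime := ⟨Nat.prime_of_mem_primeFactors p.2⟩
    obtain ⟨ϕ⟩ := ((Group.isNilpotent_of_finite_tfae (G := N)).out 0 4 rfl rfl).mp hnil
    apply hNna
    refine ⟨⟨fun a b => ?_⟩⟩
    apply ϕ.symm.injective
    rw [map_mul, map_mul]
    funext p P
    have := hall p (hF p) P
    exact this.is_comm.comm _ _
  obtain ⟨r, hr, P, hPna⟩ := hP
  have hPn : (P : Subgroup N).Normal :=
    ((Group.isNilpotent_of_finite_tfae (G := N)).out 0 3 rfl rfl).mp hnil r hr P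
  haveI : (P : Subgroup N).Characteristic := Sylow.characteristic_of_normal P hPn
  let M : Subgroup H := (P : Subgroup N).map N.subtype
  have hMn : M.Normal := inferInstance
  have hMle : M ≤ N := by
    rintro _ ⟨a, -, rfl⟩
    exact a.2
  have hMna : ¬ IsMulCommutative M := by
    intro h
    apply hPna
    refine ⟨⟨?_⟩⟩
    rintro ⟨a, ha⟩ ⟨b, hb⟩
    have := h.is_comm.comm ⟨(a : H), a, ha, rfl⟩ ⟨(b : H), b, hb, rfl⟩
    apply Subtype.ext
    apply Subtype.ext
    have h2 : (a : H) * (b : H) = (b : H) * (a : H) := congrArg Subtype.val this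
    exact h2
  have hMN : M = N := hNmin M hMn hMle hMna
  have hpg : IsPGroup r N := by
    rintro ⟨x, hx⟩
    rw [← hMN] at hx
    obtain ⟨p, hp, rfl⟩ := hx
    obtain ⟨k, hk⟩ := P.isPGroup' ⟨p, hp⟩
    refine ⟨k, ?_⟩
    apply Subtype.ext
    have h1 : p ^ r ^ k = 1 := congrArg Subtype.val hk
    have h2 : ((p ^ r ^ k : N) : H) = 1 := by rw [h1]; rfl
    simpa using h2
  -- powers
  have hpowcm : ∀ x ∈ N, ∀ y ∈ N, ∀ i : ℕ, cm (x ^ i) y = (cm x y) ^ i := by
    intro x hx y hy i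
    induction i with
    | zero => simp [cm]
    | succ i ih =>
      rw [pow_succ, cm_mul_of_central (hcen x hx y hy _ (N.pow_mem hx i)), ih, pow_succ']
  have hr' : r.Prime := hr.out
  let T : Subgroup H :=
    { carrier := {x | x ∈ N ∧ ∀ y ∈ N, (cm x y) ^ r = 1}
      one_mem' := ⟨N.one_mem, fun y _ => by simp [cm]⟩
      mul_mem' := by
        rintro a b ⟨ha, ha'⟩ ⟨hb, hb'⟩
        refine ⟨N.mul_mem ha hb, fun y hy => ?_⟩
        rw [cm_mul_of_central (hcen b hb y hy a ha)]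
        have h1 : Commute (cm b y) (cm a y) := hcen b hb y hy _ (hcN a ha y hy)
        rw [h1.mul_pow, ha' y hy, hb' y hy, one_mul]
      inv_mem' := by
        rintro a ⟨ha, ha'⟩
        refine ⟨N.inv_mem ha, fun y hy => ?_⟩
        have h1 : cm (a⁻¹ * a) y = cm a y * cm a⁻¹ y :=
          cm_mul_of_central (hcen a ha y hy _ (N.inv_mem ha))
        have h2 : cm (a⁻¹ * a) y = 1 := by simp [cm]
        rw [h2] at h1
        have h3 : cm a⁻¹ y = (cm a y)⁻¹ := eq_inv_of_mul_eq_one_right h1.symm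
        rw [h3, inv_pow, ha' y hy, inv_one] }
  have hTmem : ∀ x, x ∈ T ↔ x ∈ N ∧ ∀ y ∈ N, (cm x y) ^ r = 1 := fun x => Iff.rfl
  have hTn : T.Normal := by
    constructor
    rintro x ⟨hx, hx'⟩ g
    refine ⟨hNn.conj_mem x hx g, fun y hy => ?_⟩
    have h1 : cm (g * x * g⁻¹) y = g * cm x (g⁻¹ * y * g) * g⁻¹ := by
      unfold cm
      group
    have h2 : g⁻¹ * y * g ∈ N := by
      have := hNn.conj_mem y hy g⁻¹
      simpa using this
    rw [h1, conj_pow, hx' _ h2]
    simp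
  have hTN : T ≤ N := fun x hx => hx.1
  -- a non-central element of `T`
  have hx₁ : ∃ x ∈ T, ¬ ∀ y ∈ N, x * y = y * x := by
    have h1 : ∃ x₀ ∈ N, ¬ ∀ y ∈ N, x₀ * y = y * x₀ := by
      by_contra hall
      push Not at hall
      apply hNna
      refine ⟨⟨?_⟩⟩
      rintro ⟨a, ha⟩ ⟨b, hb⟩
      exact Subtype.ext (hall a ha b hb)
    obtain ⟨x₀, hx₀, hx₀c⟩ := h1
    let Q : ℕ → Prop := fun k => ∀ y ∈ N, x₀ ^ r ^ k * y = y * x₀ ^ r ^ k
    have hQ : ∃ k, Q k := by
      obtain ⟨k, hk⟩ := hpg ⟨x₀, hx₀⟩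
      refine ⟨k, fun y _ => ?_⟩
      have h2 : x₀ ^ r ^ k = 1 := by
        have := congrArg Subtype.val hk
        simpa using this
      rw [h2]
      simp
    let k₀ := Nat.find hQ
    have hk₀ : Q k₀ := Nat.find_spec hQ
    have hk₀0 : k₀ ≠ 0 := by
      intro h
      have h2 : Q 0 := h ▸ hk₀
      apply hx₀c
      intro y hy
      have := h2 y hy
      simpa using this
    obtain ⟨k₁, hk₁⟩ : ∃ k₁, k₀ = k₁ + 1 := ⟨k₀ - 1, by omega⟩
    have hk₁Q : ¬ Q k₁ := Nat.find_min hQ (by omega)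
    refine ⟨x₀ ^ r ^ k₁, ⟨N.pow_mem hx₀ _, fun y hy => ?_⟩, hk₁Q⟩
    rw [← hpowcm _ (N.pow_mem hx₀ _) y hy, ← pow_mul, ← pow_succ, ← hk₁]
    exact cm_eq_one.mpr (hk₀ y hy)
  obtain ⟨x₁, hx₁T, hx₁c⟩ := hx₁
  have hTna : ¬ IsMulCommutative T := by
    intro h
    have h1 := hmax T hTn h (hTN.trans hNC)
    apply hx₁c
    intro y hy
    exact hAcen x₁ (h1 hx₁T) y (hNC hy)
  have hTeq : T = N := hNmin T hTn hTN hTna
  refine ⟨N, r, hNn, hNC, hNna, hr', hpg, fun x hx y hy => ⟨hcA x hx y hy, ?_⟩, hzA⟩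
  rw [← hTeq] at hx
  exact hx.2 y hy

end Cfsg.Agent.Lib.Hup.Struct
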